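import Cfsg.Agent.Lib.Large.Singular

/-! A pair of large extraspecial subgroups with mutually contained centres. -/

set_option autoImplicit false

namespace Cfsg.Lib.Large.Pair

open Cfsg.Agent.S5595 (Data)
open Cfsg.Lib.Large.Singular (conj_cases double)
open scoped Pointwise

theorem symm {G : Type*} [Group G] [Finite G] {z x : G} {Qz Qx : Subgroup G}
    (hdz : Data z Qz) (hdx : Data x Qx)
    (hQconj : ∀ h : G, h * z * h⁻¹ = x → ∀ q ∈ Qz, h * q * h⁻¹ ∈ Qx)
    (hbig : 8 < Nat.card Qz) (hx : x ∈ Qz) : z ∈ Qx := by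
  by_cases hxz : x = z
  · exact hxz ▸ hdx.mem
  by_contra hzQ
  have hzx : z * x = x * z := (hdz.comm x hx).symm
  obtain ⟨q₀, hq₀, hq₀x⟩ : ∃ q ∈ Qz, q * x ≠ x * q := by
    by_contra h
    push Not at h
    rcases hdz.central x hx fun b hb => (h b hb).symm with h' | h'
    · exact hdx.ne h'
    · exact hxz h'
  have hq0conj : q₀ * x * q₀⁻¹ = x * z := by
    rcases hdz.brack q₀ hq₀ x hx with h | h
    · exact absurd (by rw [mul_inv_eq_one, mul_inv_eq_iff_eq_mul] at h; exact h) hq₀x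
    · rw [mul_inv_eq_iff_eq_mul] at h
      rw [h, hzx]
  -- no element of `Qx` maps `z` to `z * x`
  have hnoc : ∀ c ∈ Qx, c * z * c⁻¹ ≠ z * x := by
    intro c hc e
    refine hzQ ?_
    set h := q₀ * c * q₀ with hh
    have hqq : ∀ w, w * z = z * w → q₀ * w * q₀⁻¹ * z = z * (q₀ * w * q₀⁻¹) := fun w hw => by
      have e1 : q₀⁻¹ * z = z * q₀⁻¹ := hdz.comm _ (Qz.inv_mem hq₀)
      rw [mul_assoc, e1, ← mul_assoc, mul_assoc q₀ w z, hw, ← mul_assoc, hdz.comm q₀ hq₀, mul_assoc z q₀ w,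
        mul_assoc z]
    have hz' : h * z * h⁻¹ = x := by
      rw [hh, show q₀ * c * q₀ * z * (q₀ * c * q₀)⁻¹ = q₀ * (c * (q₀ * z * q₀⁻¹) * c⁻¹) * q₀⁻¹ by group,
        hdz.comm q₀ hq₀, mul_inv_cancel_right, e,
        show q₀ * (z * x) * q₀⁻¹ = (q₀ * z * q₀⁻¹) * (q₀ * x * q₀⁻¹) by group,
        hdz.comm q₀ hq₀, mul_inv_cancel_right, hq0conj, ← mul_assoc, hzx, mul_assoc, hdz.sq, mul_one]
    have hx' : h * x * h⁻¹ = z := by
      rw [hh, show q₀ * c * q₀ * x * (q₀ * c * q₀)⁻¹ = q₀ * (c * (q₀ * x * q₀⁻¹) * c⁻¹) * q₀⁻¹ by group,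
        hq0conj, show c * (x * z) * c⁻¹ = (c * x * c⁻¹) * (c * z * c⁻¹) by group, e, hdx.comm c hc,
        mul_inv_cancel_right, show x * (z * x) = z by rw [hzx, ← mul_assoc, hdx.sq, one_mul],
        hdz.comm q₀ hq₀, mul_inv_cancel_right]
    exact hx' ▸ hQconj h hz' x hx
  have hfix : ∀ c ∈ Qx, (z * c * z⁻¹ = c * x → False) := by
    intro c hc e
    refine hnoc c hc ?_
    rw [mul_inv_eq_iff_eq_mul] at e ⊢
    calc c * z = c * (z * (x * x)) := by rw [hdx.sq, mul_one]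
      _ = (c * x * z) * x := by rw [← mul_assoc z x x, hzx]; group
      _ = z * c * x := by rw [← e]
      _ = z * x * c := by rw [mul_assoc, hdx.comm c hc, mul_assoc]
  have hzc : ∀ w ∈ Qx, z * w * z⁻¹ ∈ Qx := hdx.conj z hzx
  have hinvz : z⁻¹ = z := inv_eq_of_mul_eq_one_right hdz.sq
  -- elements of `E`
  let InE : G → Prop := fun e => e ∈ Qz ∧ e * x = x * e
  have hEc : ∀ e, InE e → ∀ w ∈ Qx, e * w * e⁻¹ ∈ Qx := fun e he => hdx.conj e he.2
  have hcapE : ∀ w, InE w → (∀ e, InE e → w * e = e * w) → w = 1 ∨ w = x ∨ w = z ∨ w = x * z := by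
    intro w hw hcent
    have key : ∀ v, InE v → (∀ e, InE e → v * e = e * v) → v * q₀ = q₀ * v → v = 1 ∨ v = z := by
      intro v hv hvc hvq
      refine hdz.central v hv.1 fun b hb => ?_
      by_cases hbx : b * x = x * b
      · exact hvc b ⟨hb, hbx⟩
      · have hb' : InE (b * q₀) := by
          refine ⟨Qz.mul_mem hb hq₀, ?_⟩
          have eb : b * x * b⁻¹ = x * z := by
            rcases hdz.brack b hb x hx with h | h
            · exact absurd (by rw [mul_inv_eq_one, mul_inv_eq_iff_eq_mul] at h; exact h) hbx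
            · rw [mul_inv_eq_iff_eq_mul] at h; rw [h, hzx]
          refine mul_inv_eq_iff_eq_mul.1 ?_
          rw [show b * q₀ * x * (b * q₀)⁻¹ = b * (q₀ * x * q₀⁻¹) * b⁻¹ by group, hq0conj,
            show b * (x * z) * b⁻¹ = (b * x * b⁻¹) * (b * z * b⁻¹) by group, eb, hdz.comm b hb,
            mul_inv_cancel_right, mul_assoc, hdz.sq, mul_one]
        have h := hvc _ hb'
        have : v * b * q₀ = b * v * q₀ := by rw [mul_assoc v, h, mul_assoc b v, hvq, mul_assoc]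
        exact mul_right_cancel this
    rcases hdz.brack q₀ hq₀ w hw.1 with h | h
    · rw [mul_inv_eq_one, mul_inv_eq_iff_eq_mul] at h
      rcases key w hw hcent h.symm with h' | h'
      · exact Or.inl h'
      · exact Or.inr (Or.inr (Or.inl h'))
    · rw [mul_inv_eq_iff_eq_mul] at h
      have hwx : InE (w * x) := ⟨Qz.mul_mem hw.1 hx, by rw [mul_assoc, ← mul_assoc x w x, ← hw.2, mul_assoc]⟩
      rcases key (w * x) hwx (fun e he => by
          rw [mul_assoc, ← he.2, ← mul_assoc, hcent e he, mul_assoc]) (by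
          refine (mul_inv_eq_iff_eq_mul.1 ?_).symm
          rw [show q₀ * (w * x) * q₀⁻¹ = (q₀ * w * q₀⁻¹) * (q₀ * x * q₀⁻¹) by group, hq0conj, h,
            show z * w * (x * z) = z * (w * x) * z by group, ← hdz.comm (w * x) hwx.1, mul_assoc, hdz.sq,
            mul_one]) with h' | h'
      · exact Or.inr (Or.inl ((eq_inv_of_mul_eq_one_left h').trans (inv_eq_of_mul_eq_one_right hdx.sq)))
      · refine Or.inr (Or.inr (Or.inr ?_))
        calc w = w * x * x := by rw [mul_assoc, hdx.sq, mul_one]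
          _ = x * z := by rw [h', hzx]
  by_cases hab : ∀ e f, InE e → InE f → e * f = f * e
  · -- width one
    exfalso
    have hE : ∀ e, InE e → e = 1 ∨ e = x ∨ e = z ∨ e = x * z := fun e he =>
      hcapE e he fun f hf => hab e f he hf
    let f : Fin 4 × Fin 2 → G := fun t => ![1, x, z, x * z] t.1 * ![1, q₀] t.2
    have hsub : (Qz : Set G) ⊆ Set.range f := by
      intro w hw
      have h4 : ∀ e, InE e → ∃ i : Fin 4, e = ![1, x, z, x * z] i := by
        intro e he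
        rcases hE e he with h | h | h | h <;> rw [h]
        exacts [⟨0, rfl⟩, ⟨1, rfl⟩, ⟨2, rfl⟩, ⟨3, rfl⟩]
      by_cases hwx : w * x = x * w
      · obtain ⟨i, hi⟩ := h4 w ⟨hw, hwx⟩
        exact ⟨(i, 0), by simp [f, hi]⟩
      · have hw' : w * x * w⁻¹ = x * z := ((conj_cases hdz hw hx).resolve_left fun e => hwx e.1).2
        have hi' : q₀⁻¹ * x * q₀ = x * z := by
          have := congrArg (fun t => q₀⁻¹ * (t * z) * q₀) hq0conj
          simp only [mul_assoc, hdz.sq, mul_one] at this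
          rw [← hdz.comm q₀ hq₀] at this
          simpa [mul_assoc] using this.symm
        have hE' : InE (w * q₀⁻¹) := by
          refine ⟨Qz.mul_mem hw (Qz.inv_mem hq₀), mul_inv_eq_iff_eq_mul.1 ?_⟩
          rw [show w * q₀⁻¹ * x * (w * q₀⁻¹)⁻¹ = w * (q₀⁻¹ * x * q₀) * w⁻¹ by group, hi',
            show w * (x * z) * w⁻¹ = (w * x * w⁻¹) * (w * z * w⁻¹) by group, hw', hdz.comm w hw,
            mul_inv_cancel_right, mul_assoc, hdz.sq, mul_one]
        obtain ⟨i, hi⟩ := h4 _ hE'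
        exact ⟨(i, 1), by simp [f, ← hi]⟩
    have h1 := Nat.card_mono (Set.finite_range f) hsub
    have h2 : Nat.card (Set.range f) ≤ 8 := by
      refine le_trans (Finite.card_range_le f) ?_
      simp [Nat.card_eq_fintype_card]
    exact absurd (lt_of_lt_of_le hbig (le_trans h1 h2)) (lt_irrefl 8)
  push Not at hab
  obtain ⟨e₁, e₂, he₁, he₂, hne⟩ := hab
  -- `E` meets `Qx` in `⟨x⟩`
  have hEF : ∀ e, InE e → ∀ f ∈ Qx, f * z = z * f → ∃ i : ℕ, e * f * e⁻¹ = f * x ^ i := by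
    intro e he f hf hfz
    set w := f⁻¹ * (e * f * e⁻¹) with hw
    have hfi : f⁻¹ * x = x * f⁻¹ := hdx.comm _ (Qx.inv_mem hf)
    have hwQz : InE w := by
      have h1 : f⁻¹ * e * f ∈ Qz := by
        have := hdz.conj f⁻¹ (by
          have := congrArg (fun t => f⁻¹ * t * f⁻¹) hfz
          simpa [mul_assoc] using this.symm) e he.1
        rwa [inv_inv] at this
      refine ⟨by rw [hw, show f⁻¹ * (e * f * e⁻¹) = f⁻¹ * e * f * e⁻¹ by group]
                 exact Qz.mul_mem h1 (Qz.inv_mem he.1), ?_⟩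
      exact hdx.comm w (Qx.mul_mem (Qx.inv_mem hf) (hEc e he f hf))
    have hwQx : w ∈ Qx := Qx.mul_mem (Qx.inv_mem hf) (hEc e he f hf)
    have hcent : ∀ e', InE e' → w * e' = e' * w := by
      intro e' he'
      rcases hdz.brack e' he'.1 w hwQz.1 with h | h
      · rw [mul_inv_eq_one, mul_inv_eq_iff_eq_mul] at h; exact h.symm
      · exact absurd (h ▸ Qx.mul_mem (hEc e' he' w hwQx) (Qx.inv_mem hwQx)) hzQ
    have heq : e * f * e⁻¹ = f * w := (mul_inv_cancel_left f _).symm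
    rcases hcapE w hwQz hcent with h | h | h | h
    · exact ⟨0, by rw [heq, h, pow_zero]⟩
    · exact ⟨1, by rw [heq, h, pow_one]⟩
    · exact absurd (h ▸ hwQx) hzQ
    · refine absurd ?_ hzQ
      have h' : x * (x * z) ∈ Qx := Qx.mul_mem hdx.mem (h ▸ hwQx)
      rwa [← mul_assoc, hdx.sq, one_mul] at h'
  have hxpow : ∀ i : ℕ, ∀ w ∈ Qx, w * x ^ i = x ^ i * w := fun i w hw =>
    ((show Commute w x from hdx.comm w hw).pow_right i).eq
  have hzfix : ∀ w ∈ Qx, ∀ i : ℕ, z * w * z⁻¹ = w * x ^ i → w * z = z * w := by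
    intro w hw i h
    rcases Nat.even_or_odd i with ⟨k, rfl⟩ | ⟨k, rfl⟩
    · rw [← two_mul, pow_mul, pow_two, hdx.sq, one_pow, mul_one, mul_inv_eq_iff_eq_mul] at h
      exact h.symm
    · rw [pow_succ, pow_mul, pow_two, hdx.sq, one_pow, one_mul] at h
      exact (hfix w hw h).elim
  have hstep : ∀ e, InE e → ∀ q ∈ Qx, ∃ f ∈ Qx, f * z = z * f ∧ e * q * e⁻¹ = q * f := by
    intro e he q hq
    set f := q⁻¹ * (e * q * e⁻¹)
    have hfQ : f ∈ Qx := Qx.mul_mem (Qx.inv_mem hq) (hEc e he q hq)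
    refine ⟨f, hfQ, ?_, (mul_inv_cancel_left q _).symm⟩
    set k := q⁻¹ * (z * q * z⁻¹)
    have hkQ : k ∈ Qx := Qx.mul_mem (Qx.inv_mem hq) (hzc q hq)
    have hkz : k * z = z * k := by
      have hk1 : z * k * z⁻¹ = k⁻¹ := by
        simp only [k, mul_inv_rev, inv_inv, hinvz]
        rw [show z * (q⁻¹ * (z * q * z)) * z = z * q⁻¹ * z * q * (z * z) by group, hdz.sq, mul_one]
        group
      rcases hdx.square k hkQ with h | h
      · exact hzfix k hkQ 0 (by rw [hk1, pow_zero, mul_one, inv_eq_of_mul_eq_one_right h])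
      · refine hzfix k hkQ 1 ?_
        rw [hk1, pow_one]
        refine inv_eq_of_mul_eq_one_right ?_
        rw [← mul_assoc, h, hdx.sq]
    obtain ⟨i, hi⟩ := hEF e he k hkQ hkz
    have hzf : z * f * z⁻¹ = k⁻¹ * f * k * x ^ i := by
      have e0 : e * z = z * e := hdz.comm e he.1
      calc z * f * z⁻¹ = (z * q * z⁻¹)⁻¹ * (z * e * q * e⁻¹ * z⁻¹) := by simp only [f]; group
        _ = (z * q * z⁻¹)⁻¹ * (e * (z * q * z⁻¹) * e⁻¹) := by
          have e1 : e⁻¹ * z⁻¹ = z⁻¹ * e⁻¹ := by rw [← mul_inv_rev, ← mul_inv_rev, e0]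
          rw [← e0]
          simp only [mul_assoc, e1]
        _ = (q * k)⁻¹ * (e * (q * k) * e⁻¹) := by rw [show q * k = z * q * z⁻¹ from mul_inv_cancel_left q _]
        _ = k⁻¹ * f * (e * k * e⁻¹) := by simp only [f]; group
        _ = _ := by rw [hi]; group
    rcases hdx.brack k⁻¹ (Qx.inv_mem hkQ) f hfQ with h | h
    · rw [inv_inv] at h
      refine hzfix f hfQ i ?_
      rw [hzf, mul_inv_eq_one.1 h]
    · rw [inv_inv] at h
      refine hzfix f hfQ (1 + i) ?_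
      rw [hzf, mul_inv_eq_iff_eq_mul.1 h, pow_add, pow_one, ← hdx.comm f hfQ, mul_assoc]
  -- commutators of `E` act trivially
  have htriv : ∀ q ∈ Qx, z * q = q * z := by
    intro q hq
    set c := e₁ * e₂ * e₁⁻¹ * e₂⁻¹ with hcdef
    have hc : c = z := (hdz.brack e₁ he₁.1 e₂ he₂.1).resolve_left fun h => hne (by
      rw [mul_inv_eq_one, mul_inv_eq_iff_eq_mul] at h; exact h)
    set q' := e₁⁻¹ * (e₂⁻¹ * q * e₂) * e₁ with hq'
    have hq'Q : q' ∈ Qx := by
      have a1 : e₂⁻¹ * q * e₂ ∈ Qx := by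
        have := hdx.conj e₂⁻¹ (by
          have := congrArg (fun t => e₂⁻¹ * t * e₂⁻¹) he₂.2
          simpa [mul_assoc] using this.symm) q hq
        rwa [inv_inv] at this
      have := hdx.conj e₁⁻¹ (by
        have := congrArg (fun t => e₁⁻¹ * t * e₁⁻¹) he₁.2
        simpa [mul_assoc] using this.symm) _ a1
      rwa [inv_inv] at this
    obtain ⟨f1, hf1, hf1z, h1⟩ := hstep e₁ he₁ q' hq'Q
    obtain ⟨f2, hf2, hf2z, h2'⟩ := hstep e₂ he₂ q' hq'Q
    obtain ⟨i, hi⟩ := hEF e₁ he₁ f2 hf2 hf2z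
    obtain ⟨j, hj⟩ := hEF e₂ he₂ f1 hf1 hf1z
    have A : e₁ * (e₂ * q' * e₂⁻¹) * e₁⁻¹ = q' * f1 * f2 * x ^ i := by
      rw [h2', show e₁ * (q' * f2) * e₁⁻¹ = (e₁ * q' * e₁⁻¹) * (e₁ * f2 * e₁⁻¹) by group, h1, hi]; group
    have B : e₂ * (e₁ * q' * e₁⁻¹) * e₂⁻¹ = q' * f2 * f1 * x ^ j := by
      rw [h1, show e₂ * (q' * f1) * e₂⁻¹ = (e₂ * q' * e₂⁻¹) * (e₂ * f1 * e₂⁻¹) by group, h2', hj]; group
    have hqB : q = q' * f2 * f1 * x ^ j := by rw [← B, hq']; group
    have hzq : z * q * z⁻¹ = q' * f1 * f2 * x ^ i := by rw [← hc, ← A, hq', hcdef]; group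
    obtain ⟨l, hl⟩ : ∃ l : ℕ, f1 * f2 = f2 * f1 * x ^ l := by
      rcases hdx.brack f1 hf1 f2 hf2 with h | h
      · exact ⟨0, by rw [mul_inv_eq_one, mul_inv_eq_iff_eq_mul] at h; rw [pow_zero, mul_one, h]⟩
      · refine ⟨1, ?_⟩
        rw [mul_inv_eq_iff_eq_mul, mul_inv_eq_iff_eq_mul] at h
        rw [h, pow_one, hdx.comm _ (Qx.mul_mem hf2 hf1), mul_assoc x f2 f1]
    refine (hzfix q hq (j + l + i) ?_).symm
    rw [hzq, hqB, show q' * f1 * f2 = q' * (f1 * f2) by group, hl, pow_add, pow_add]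
    have hjj : x ^ j * x ^ j = 1 := by rw [← (Commute.refl x).mul_pow, hdx.sq, one_pow]
    calc q' * (f2 * f1 * x ^ l) * x ^ i = q' * f2 * f1 * (x ^ j * x ^ j) * (x ^ l * x ^ i) := by
          rw [hjj]; group
      _ = _ := by group
  exact hzQ (hdx.selfc z htriv)

/-- The conjugate `h P h⁻¹`. -/
def conjS {G : Type*} [Group G] (h : G) (P : Subgroup G) : Subgroup G := P.map (MulAut.conj h).toMonoidHom

variable {G : Type*} [Group G]

theorem mem_conjS {h q : G} {P : Subgroup G} : q ∈ conjS h P ↔ h⁻¹ * q * h ∈ P := by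
  constructor
  · rintro ⟨p, hp, rfl⟩
    show h⁻¹ * (h * p * h⁻¹) * h ∈ P
    rwa [show h⁻¹ * (h * p * h⁻¹) * h = p by group]
  · intro hq
    exact ⟨_, hq, show h * (h⁻¹ * q * h) * h⁻¹ = q by group⟩

theorem conj_mem_conjS {h q : G} {P : Subgroup G} (hq : q ∈ P) : h * q * h⁻¹ ∈ conjS h P := ⟨q, hq, rfl⟩

theorem data_conj {z : G} {P : Subgroup G} (hd : Data z P) (h : G) : Data (h * z * h⁻¹) (conjS h P) := by
  refine ⟨conj_mem_conjS hd.mem, ?_, fun e => hd.ne (conj_eq_one_iff.1 e), ?_, ?_, ?_, ?_, ?_, ?_⟩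
  · rw [show h * z * h⁻¹ * (h * z * h⁻¹) = h * (z * z) * h⁻¹ by group, hd.sq]; group
  · rintro _ ⟨q, hq, rfl⟩
    show h * q * h⁻¹ * (h * z * h⁻¹) = h * z * h⁻¹ * (h * q * h⁻¹)
    rw [show h * q * h⁻¹ * (h * z * h⁻¹) = h * (q * z) * h⁻¹ by group, hd.comm q hq]; group
  · intro c hc q hq
    rw [mem_conjS] at hq ⊢
    have := hd.conj (h⁻¹ * c * h) (by
      rw [show h⁻¹ * c * h * z = h⁻¹ * (c * (h * z * h⁻¹)) * h by group, hc]; group) _ hq
    convert this using 1; group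
  · intro a ha b hb
    rw [show a * b * a⁻¹ * b⁻¹ = h * ((h⁻¹ * a * h) * (h⁻¹ * b * h) * (h⁻¹ * a * h)⁻¹ * (h⁻¹ * b * h)⁻¹) * h⁻¹
      by group]
    rcases hd.brack _ (mem_conjS.1 ha) _ (mem_conjS.1 hb) with e | e <;> rw [e]
    · left; group
    · exact Or.inr rfl
  · intro a ha
    rw [show a * a = h * ((h⁻¹ * a * h) * (h⁻¹ * a * h)) * h⁻¹ by group]
    rcases hd.square _ (mem_conjS.1 ha) with e | e <;> rw [e]
    · left; group
    · exact Or.inr rfl
  · intro a ha hc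
    rcases hd.central _ (mem_conjS.1 ha) (fun b hb => by
      have := congrArg (fun t => h⁻¹ * t * h) (hc _ (conj_mem_conjS (h := h) hb))
      convert this using 1 <;> group) with e | e
    · exact Or.inl (by rw [show a = h * (h⁻¹ * a * h) * h⁻¹ by group, e]; group)
    · exact Or.inr (by rw [show a = h * (h⁻¹ * a * h) * h⁻¹ by group, e])
  · intro c hc
    refine mem_conjS.2 (hd.selfc _ fun q hq => ?_)
    have := congrArg (fun t => h⁻¹ * t * h) (hc _ (conj_mem_conjS (h := h) hq))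
    convert this using 1 <;> group

/-- The hypotheses on the pair. -/
structure Setting (z x : G) (P S : Subgroup G) : Prop where
  dz : Data z P
  dx : Data x S
  xmem : x ∈ P
  zmem : z ∈ S
  ne : x ≠ z
  ex : ∃ g : G, g * z * g⁻¹ = x ∧ ∀ q, q ∈ S ↔ g⁻¹ * q * g ∈ P

theorem setting_of [Finite G] {z g : G} {P : Subgroup G} (hd : Data z P) (hbig : 8 < Nat.card P)
    (hne : g * z * g⁻¹ ≠ z) (hm : g * z * g⁻¹ ∈ P) : Setting z (g * z * g⁻¹) P (conjS g P) := by
  refine ⟨hd, data_conj hd g, hm, symm hd (data_conj hd g) ?_ hbig hm, hne, g, rfl, fun q => mem_conjS⟩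
  intro h he q hq
  rw [mem_conjS]
  have := hd.conj (g⁻¹ * h) (by
    calc g⁻¹ * h * z = g⁻¹ * (h * z * h⁻¹) * h := by group
      _ = z * (g⁻¹ * h) := by rw [he]; group) q hq
  convert this using 1; group

variable {z x : G} {P S : Subgroup G}

theorem Setting.swap (h : Setting z x P S) : Setting x z S P := by
  obtain ⟨g, hg, hS⟩ := h.ex
  refine ⟨h.dx, h.dz, h.zmem, h.xmem, h.ne.symm, g⁻¹, by rw [← hg]; group, fun q => ?_⟩
  rw [hS, inv_inv, show g⁻¹ * (g * q * g⁻¹) * g = q by group]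

section

variable (h : Setting z x P S)
include h

theorem comm_zx : z * x = x * z := (h.dz.comm x h.xmem).symm

theorem conjz {q : G} (hq : q ∈ P) : q * z * q⁻¹ = z := by
  rw [h.dz.comm q hq, mul_inv_cancel_right]

theorem conjx {q : G} (hq : q ∈ P) : q * x * q⁻¹ = x ∨ q * x * q⁻¹ = x * z := by
  rcases conj_cases h.dz hq h.xmem with ⟨-, e⟩ | ⟨-, e⟩
  · exact Or.inl e
  · exact Or.inr e

theorem exists_move : ∃ q ∈ P, q * x ≠ x * q := by
  by_contra hcon
  push Not at hcon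
  rcases h.dz.central x h.xmem fun b hb => (hcon b hb).symm with e | e
  · exact h.dx.ne e
  · exact h.ne e

theorem conjx_move {q : G} (hq : q ∈ P) (hqx : q * x ≠ x * q) : q * x * q⁻¹ = x * z :=
  ((conj_cases h.dz hq h.xmem).resolve_left fun e => hqx e.1).2

theorem A_conj {q a : G} (hq : q ∈ P) (ha : a ∈ P) (hax : a * x = x * a) :
    q * a * q⁻¹ ∈ P ∧ q * a * q⁻¹ * x = x * (q * a * q⁻¹) := by
  rcases conj_cases h.dz hq ha with ⟨-, e⟩ | ⟨-, e⟩ <;> rw [e]
  · exact ⟨ha, hax⟩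
  · exact ⟨P.mul_mem ha h.dz.mem, by rw [mul_assoc, comm_zx h, ← mul_assoc, hax, mul_assoc]⟩

end

/-- The group `R`. -/
def rad (z x : G) (P S : Subgroup G) : Subgroup G :=
  (S ⊓ Subgroup.centralizer ({z} : Set G)) ⊔ (P ⊓ Subgroup.centralizer ({x} : Set G))

theorem rad_swap : rad x z S P = rad z x P S := sup_comm _ _

section

variable (h : Setting z x P S)
include h

theorem A_le {a : G} (ha : a ∈ P) (hax : a * x = x * a) : a ∈ rad z x P S :=
  Subgroup.mem_sup_right ⟨ha, Subgroup.mem_centralizer_singleton_iff.2 hax⟩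

theorem B_le {b : G} (hb : b ∈ S) (hbz : b * z = z * b) : b ∈ rad z x P S :=
  Subgroup.mem_sup_left ⟨hb, Subgroup.mem_centralizer_singleton_iff.2 hbz⟩

theorem zR : z ∈ rad z x P S := A_le h h.dz.mem (comm_zx h)

theorem xR : x ∈ rad z x P S := A_le h h.xmem rfl

theorem prod {r : G} (hr : r ∈ rad z x P S) : ∃ b ∈ S, ∃ a ∈ P, b * z = z * b ∧ a * x = x * a ∧ r = b * a := by
  have hn : P ⊓ Subgroup.centralizer ({x} : Set G) ≤
      Subgroup.normalizer ((S ⊓ Subgroup.centralizer ({z} : Set G) : Subgroup G) : Set G) := by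
    rintro a ⟨ha, hax'⟩
    have hax : a * x = x * a := Subgroup.mem_centralizer_singleton_iff.1 hax'
    have key : ∀ a ∈ P, a * x = x * a → ∀ b ∈ S ⊓ Subgroup.centralizer ({z} : Set G),
        a * b * a⁻¹ ∈ S ⊓ Subgroup.centralizer ({z} : Set G) := by
      rintro a ha hax b ⟨hb, hbz'⟩
      have hbz : b * z = z * b := Subgroup.mem_centralizer_singleton_iff.1 hbz'
      refine ⟨h.dx.conj a hax b hb, Subgroup.mem_centralizer_singleton_iff.2 ?_⟩
      refine mul_inv_eq_iff_eq_mul.1 ?_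
      have ez : a⁻¹ * z * a = z := by
        have := conjz h (P.inv_mem ha); rwa [inv_inv] at this
      rw [show a * b * a⁻¹ * z * (a * b * a⁻¹)⁻¹ = a * (b * (a⁻¹ * z * a) * b⁻¹) * a⁻¹ by group, ez, hbz,
        mul_inv_cancel_right, conjz h ha]
    rw [Subgroup.mem_normalizer_iff]
    refine fun b => ⟨fun hb => key a ha hax b hb, fun hb => ?_⟩
    have := key a⁻¹ (P.inv_mem ha) ((show Commute a x from hax).inv_left.eq) _ hb
    rwa [show a⁻¹ * (a * b * a⁻¹) * a⁻¹⁻¹ = b by group] at this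
  have hr' : r ∈ ((S ⊓ Subgroup.centralizer ({z} : Set G) : Subgroup G) : Set G) *
      ((P ⊓ Subgroup.centralizer ({x} : Set G) : Subgroup G) : Set G) := by
    rw [← Subgroup.coe_mul_of_right_le_normalizer_left _ _ hn]; exact hr
  obtain ⟨b, ⟨hb, hbz⟩, a, ⟨ha, hax⟩, rfl⟩ := hr'
  exact ⟨b, hb, a, ha, Subgroup.mem_centralizer_singleton_iff.1 hbz,
    Subgroup.mem_centralizer_singleton_iff.1 hax, rfl⟩

theorem rad_comm {r : G} (hr : r ∈ rad z x P S) : r * z = z * r ∧ r * x = x * r := by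
  obtain ⟨b, hb, a, ha, hbz, hax, rfl⟩ := prod h hr
  have c1 : Commute b z := hbz
  have c2 : Commute a z := h.dz.comm a ha
  have c3 : Commute b x := h.dx.comm b hb
  exact ⟨(c1.mul_left c2).eq, (c3.mul_left hax).eq⟩

/-- Squares of elements of `R` lie in `E`. -/
theorem sq_mem {r : G} (hr : r ∈ rad z x P S) : r * r ∈ P ∧ r * r ∈ S := by
  obtain ⟨b, hb, a, ha, hbz, hax, rfl⟩ := prod h hr
  have h1 : b * b ∈ P ∧ b * b ∈ S := by
    refine ⟨?_, S.mul_mem hb hb⟩
    rcases h.dx.square b hb with e | e <;> rw [e]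
    exacts [P.one_mem, h.xmem]
  have h3 : a * a ∈ P ∧ a * a ∈ S := by
    refine ⟨P.mul_mem ha ha, ?_⟩
    rcases h.dz.square a ha with e | e <;> rw [e]
    exacts [S.one_mem, h.zmem]
  have h2 : b⁻¹ * a * b * a⁻¹ ∈ P ∧ b⁻¹ * a * b * a⁻¹ ∈ S := by
    refine ⟨P.mul_mem ?_ (P.inv_mem ha), ?_⟩
    · have := h.dz.conj b⁻¹ ((show Commute b z from hbz).inv_left.eq) a ha
      rwa [inv_inv] at this
    · rw [mul_assoc, mul_assoc, ← mul_assoc a b a⁻¹]
      exact S.mul_mem (S.inv_mem hb) (h.dx.conj a hax b hb)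
  rw [show b * a * (b * a) = b * b * (b⁻¹ * a * b * a⁻¹) * (a * a) by group]
  exact ⟨P.mul_mem (P.mul_mem h1.1 h2.1) h3.1, S.mul_mem (S.mul_mem h1.2 h2.2) h3.2⟩

theorem comm_mem {r s : G} (hr : r ∈ rad z x P S) (hs : s ∈ rad z x P S) :
    r * s * r⁻¹ * s⁻¹ ∈ P ∧ r * s * r⁻¹ * s⁻¹ ∈ S := by
  set R := rad z x P S
  have h1 := sq_mem h (R.mul_mem hr hs)
  have h2 := sq_mem h (R.mul_mem (R.mul_mem (R.inv_mem hs) (R.inv_mem hr)) hs)
  have h3 := sq_mem h (R.inv_mem hs)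
  rw [show r * s * r⁻¹ * s⁻¹ = (r * s * (r * s)) * (s⁻¹ * r⁻¹ * s * (s⁻¹ * r⁻¹ * s)) * (s⁻¹ * s⁻¹) by group]
  exact ⟨P.mul_mem (P.mul_mem h1.1 h2.1) h3.1, S.mul_mem (S.mul_mem h1.2 h2.2) h3.2⟩

theorem E_abelian {e f : G} (he : e ∈ P) (he' : e ∈ S) (hf : f ∈ P) (hf' : f ∈ S) :
    e * f = f * e ∧ e * e = 1 := by
  constructor
  · rcases h.dz.brack e he f hf with h1 | h1
    · rw [mul_inv_eq_one] at h1; exact mul_inv_eq_iff_eq_mul.1 h1
    · rcases h.dx.brack e he' f hf' with h2 | h2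
      · exact absurd (h1.symm.trans h2) h.dz.ne
      · exact absurd (h2.symm.trans h1) h.ne
  · rcases h.dz.square e he with h1 | h1
    · exact h1
    · rcases h.dx.square e he' with h2 | h2
      · exact h2
      · exact absurd (h2.symm.trans h1) h.ne

theorem rad_pow_four {r : G} (hr : r ∈ rad z x P S) : r ^ 4 = 1 := by
  obtain ⟨h1, h2⟩ := sq_mem h hr
  rw [show r ^ 4 = r * r * (r * r) by simp [pow_succ, mul_assoc]]
  exact (E_abelian h h1 h2 h1 h2).2

/-- The centre of `R`. -/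
theorem central_rad {y : G} (hy : y ∈ rad z x P S) (hyc : ∀ r ∈ rad z x P S, r * y = y * r) :
    y ∈ Subgroup.closure ({z, x} : Set G) := by
  classical
  have hz : z ∈ Subgroup.closure ({z, x} : Set G) := Subgroup.subset_closure (by simp)
  have hx : x ∈ Subgroup.closure ({z, x} : Set G) := Subgroup.subset_closure (by simp)
  obtain ⟨q, hq, hqx⟩ := exists_move h
  obtain ⟨hyz, hyx⟩ := rad_comm h hy
  set c := q⁻¹ * (y * q * y⁻¹) with hcdef
  have hcP : c ∈ P := P.mul_mem (P.inv_mem hq) (h.dz.conj y hyz q hq)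
  have hc : c ∈ Subgroup.closure (insert z (({x} : Finset G) : Set G)) := by
    refine double h.dz {x} (by simpa using h.xmem) c hcP fun a ha hax => ?_
    have hax' : a * x = x * a := hax x (by simp)
    obtain ⟨ha1, ha2⟩ := A_conj h hq ha hax'
    have e1 : Commute a y := hyc a (A_le h ha hax')
    have e2 : Commute (q * a * q⁻¹) y := hyc _ (A_le h ha1 ha2)
    have e3 : Commute a (q⁻¹ * y * q) := by
      have := congrArg (fun t => q⁻¹ * t * q) e2.eq
      show a * (q⁻¹ * y * q) = q⁻¹ * y * q * a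
      convert this using 1 <;> group
    rw [show c = q⁻¹ * y * q * y⁻¹ by rw [hcdef]; group]
    exact (e3.mul_right e1.inv_right).eq
  rw [Finset.coe_singleton] at hc
  have hcases : c = 1 ∨ c = z ∨ c = x ∨ c = z * x := by
    have hsub : ∀ v ∈ Subgroup.closure (insert z ({x} : Set G)), v = 1 ∨ v = z ∨ v = x ∨ v = z * x := by
      intro v hv
      have e1 : z * (z * x) = x := by rw [← mul_assoc, h.dz.sq, one_mul]
      have e2 : x * (z * x) = z := by rw [comm_zx h, ← mul_assoc, h.dx.sq, one_mul]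
      have e3 : x * z = z * x := (comm_zx h).symm
      induction hv using Subgroup.closure_induction_left with
      | one => exact Or.inl rfl
      | mul_left a ha b _ hb =>
        rcases ha with rfl | ha
        · rcases hb with rfl | rfl | rfl | rfl <;> simp [h.dz.sq, e1]
        · rw [Set.mem_singleton_iff.1 ha]
          rcases hb with rfl | rfl | rfl | rfl <;> simp [h.dx.sq, e2, e3]
      | inv_mul_cancel a ha b _ hb =>
        rcases ha with rfl | ha
        · rw [inv_eq_of_mul_eq_one_right h.dz.sq]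
          rcases hb with rfl | rfl | rfl | rfl <;> simp [h.dz.sq, e1]
        · rw [Set.mem_singleton_iff.1 ha, inv_eq_of_mul_eq_one_right h.dx.sq]
          rcases hb with rfl | rfl | rfl | rfl <;> simp [h.dx.sq, e2, e3]
    exact hsub c hc
  have hconj : y * q * y⁻¹ = q * c := (mul_inv_cancel_left q _).symm
  have hsq : q * c * (q * c) = q * q := by
    rw [← hconj, show y * q * y⁻¹ * (y * q * y⁻¹) = y * (q * q) * y⁻¹ by group]
    rcases h.dz.square q hq with e | e <;> rw [e]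
    · group
    · rw [hyz, mul_inv_cancel_right]
  have hcz : c = 1 ∨ c = z := by
    rcases hcases with e | e | e | e
    · exact Or.inl e
    · exact Or.inr e
    · rw [e, show q * x * (q * x) = q * (x * q * x) by group, mul_right_inj] at hsq
      refine absurd ?_ hqx
      calc q * x = x * q * x * x := by rw [hsq]
        _ = x * q := by rw [mul_assoc, h.dx.sq, mul_one]
    · rw [e, show q * (z * x) * (q * (z * x)) = q * (z * x * q * (z * x)) by group, mul_right_inj] at hsq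
      rw [show z * x * q * (z * x) = z * (x * (q * z)) * x by group, h.dz.comm q hq,
        show z * (x * (z * q)) * x = z * (x * z) * (q * x) by group, ← comm_zx h, ← mul_assoc z z x, h.dz.sq,
        one_mul] at hsq
      refine absurd ?_ hqx
      calc q * x = x * (x * (q * x)) := by rw [← mul_assoc x x, h.dx.sq, one_mul]
        _ = x * q := by rw [hsq]
  have key : ∀ w, w ∈ rad z x P S → (∀ r ∈ rad z x P S, r * w = w * r) → w * q * w⁻¹ = q → w = 1 ∨ w = z := by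
    intro w hw hwc hwq
    have hall : ∀ b ∈ P, w * b = b * w := by
      intro b hb
      by_cases hbx : b * x = x * b
      · exact (hwc b (A_le h hb hbx)).symm
      · have hA : q⁻¹ * b ∈ rad z x P S := by
          refine A_le h (P.mul_mem (P.inv_mem hq) hb) (mul_inv_eq_iff_eq_mul.1 ?_)
          rw [show q⁻¹ * b * x * (q⁻¹ * b)⁻¹ = q⁻¹ * (b * x * b⁻¹) * q by group, conjx_move h hb hbx,
            ← conjx_move h hq hqx]
          group
        have c1 : Commute w q := mul_inv_eq_iff_eq_mul.1 hwq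
        have c2 : Commute w (q⁻¹ * b) := (hwc _ hA).symm
        have := c1.mul_right c2
        rwa [mul_inv_cancel_left] at this
    exact h.dz.central w (h.dz.selfc w hall) hall
  rcases hcz with e | e
  · rcases key y hy hyc (by rw [hconj, e, mul_one]) with e' | e' <;> rw [e']
    · exact one_mem _
    · exact hz
  · have hxc : ∀ r ∈ rad z x P S, r * (y * x) = y * x * r := fun r hr =>
      ((show Commute r y from hyc r hr).mul_right (rad_comm h hr).2).eq
    have hxq : x * q * x⁻¹ = q * z := by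
      refine ((conj_cases h.dz h.xmem hq).resolve_left fun e => hqx e.1.symm).2
    have : y = y * x * x⁻¹ := (mul_inv_cancel_right y x).symm
    rcases key (y * x) ((rad z x P S).mul_mem hy (xR h)) hxc (by
      rw [show y * x * q * (y * x)⁻¹ = y * (x * q * x⁻¹) * y⁻¹ by group, hxq,
        show y * (q * z) * y⁻¹ = (y * q * y⁻¹) * (y * z * y⁻¹) by group, hconj, e, hyz, mul_inv_cancel_right,
        mul_assoc, h.dz.sq, mul_one]) with e' | e' <;> rw [this, e']
    · exact mul_mem (one_mem _) (inv_mem hx)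
    · exact mul_mem hz (inv_mem hx)

theorem P_normalizes {q r : G} (hq : q ∈ P) (hr : r ∈ rad z x P S) : q * r * q⁻¹ ∈ rad z x P S := by
  obtain ⟨b, hb, a, ha, hbz, hax, rfl⟩ := prod h hr
  obtain ⟨a1, a2⟩ := A_conj h hq ha hax
  have hb1 : q * b * q⁻¹ * b⁻¹ ∈ P := by
    rw [mul_assoc, mul_assoc, ← mul_assoc b q⁻¹ b⁻¹]
    exact P.mul_mem hq (h.dz.conj b hbz _ (P.inv_mem hq))
  have hb2 : q * b * q⁻¹ * b⁻¹ * x = x * (q * b * q⁻¹ * b⁻¹) := by
    refine mul_inv_eq_iff_eq_mul.1 ?_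
    have e1 : b⁻¹ * x * b = x := by rw [← h.dx.comm b⁻¹ (S.inv_mem hb) |>.symm, inv_mul_cancel_right]
    have e2 : b * (q⁻¹ * x * q) * b⁻¹ = q⁻¹ * x * q := by
      have hbx : b * x * b⁻¹ = x := by rw [h.dx.comm b hb, mul_inv_cancel_right]
      have := conjx h (P.inv_mem hq)
      rw [inv_inv] at this
      rcases this with e | e <;> rw [e]
      · exact hbx
      · rw [show b * (x * z) * b⁻¹ = (b * x * b⁻¹) * (b * z * b⁻¹) by group, hbx, hbz, mul_inv_cancel_right]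
    rw [show q * b * q⁻¹ * b⁻¹ * x * (q * b * q⁻¹ * b⁻¹)⁻¹ = q * (b * (q⁻¹ * (b⁻¹ * x * b) * q) * b⁻¹) * q⁻¹ by group,
      e1, e2]
    group
  rw [show q * (b * a) * q⁻¹ = (q * b * q⁻¹ * b⁻¹) * b * (q * a * q⁻¹) by group]
  exact mul_mem (mul_mem (A_le h hb1 hb2) (B_le h hb hbz)) (A_le h a1 a2)

theorem S_normalizes {q r : G} (hq : q ∈ S) (hr : r ∈ rad z x P S) : q * r * q⁻¹ ∈ rad z x P S := by
  rw [← rad_swap] at hr ⊢
  exact P_normalizes h.swap hq hr

theorem sup_normalizes {y r : G} (hy : y ∈ P ⊔ S) (hr : r ∈ rad z x P S) : y * r * y⁻¹ ∈ rad z x P S := by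
  rw [Subgroup.sup_eq_closure] at hy
  induction hy using Subgroup.closure_induction_left generalizing r with
  | one => rwa [one_mul, inv_one, mul_one]
  | mul_left a ha b _ ih =>
    rw [show a * b * r * (a * b)⁻¹ = a * (b * r * b⁻¹) * a⁻¹ by group]
    rcases ha with ha | ha
    exacts [P_normalizes h ha (ih hr), S_normalizes h ha (ih hr)]
  | inv_mul_cancel a ha b _ ih =>
    rw [show a⁻¹ * b * r * (a⁻¹ * b)⁻¹ = a⁻¹ * (b * r * b⁻¹) * a⁻¹⁻¹ by group]
    rcases ha with ha | ha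
    exacts [P_normalizes h (P.inv_mem ha) (ih hr), S_normalizes h (S.inv_mem ha) (ih hr)]

theorem P_coset {q₀ q : G} (h0 : q₀ ∈ P) (h0x : q₀ * x ≠ x * q₀) (hq : q ∈ P) :
    ∃ r ∈ rad z x P S, q = r ∨ q = r * q₀ := by
  by_cases hqx : q * x = x * q
  · exact ⟨q, A_le h hq hqx, Or.inl rfl⟩
  · refine ⟨q * q₀⁻¹, A_le h (P.mul_mem hq (P.inv_mem h0)) (mul_inv_eq_iff_eq_mul.1 ?_),
      Or.inr (inv_mul_cancel_right q q₀).symm⟩
    have hi : q₀⁻¹ * x * q₀ = x * z :=  by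
      have := conjx_move h (P.inv_mem h0) fun e => h0x ?_
      · rwa [inv_inv] at this
      · have := congrArg (fun t => q₀ * t * q₀) e
        simpa [mul_assoc] using this.symm
    rw [show q * q₀⁻¹ * x * (q * q₀⁻¹)⁻¹ = q * (q₀⁻¹ * x * q₀) * q⁻¹ by group, hi,
      show q * (x * z) * q⁻¹ = (q * x * q⁻¹) * (q * z * q⁻¹) by group, conjx_move h hq hqx, conjz h hq,
      mul_assoc, h.dz.sq, mul_one]

/-- The two ways round the triangle agree modulo `R`. -/
theorem braid {q₀ q₁ : G} (h0 : q₀ ∈ P) (h0x : q₀ * x ≠ x * q₀) (h1 : q₁ ∈ S) (h1z : q₁ * z ≠ z * q₁) :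
    (q₀ * q₁ * q₀⁻¹)⁻¹ * (q₁ * q₀ * q₁⁻¹) ∈ rad z x P S := by
  have m0 := conjx_move h h0 h0x
  have m1 : q₁ * z * q₁⁻¹ = z * x := conjx_move h.swap h1 h1z
  have n0 : q₀⁻¹ * x * q₀ = x * z := by
    have := conjx_move h (P.inv_mem h0) fun e => h0x ?_
    · rwa [inv_inv] at this
    · have := congrArg (fun t => q₀ * t * q₀) e
      simpa [mul_assoc] using this.symm
  have n1 : q₁⁻¹ * z * q₁ = z * x := by
    have := conjx_move h.swap (S.inv_mem h1) fun e => h1z ?_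
    · rwa [inv_inv] at this
    · have := congrArg (fun t => q₁ * t * q₁) e
      simpa [mul_assoc] using this.symm
  have z0 : q₀⁻¹ * z * q₀ = z := by have := conjz h (P.inv_mem h0); rwa [inv_inv] at this
  have z0' : q₀ * z * q₀⁻¹ = z := conjz h h0
  have x1 : q₁⁻¹ * x * q₁ = x := by have := conjz h.swap (S.inv_mem h1); rwa [inv_inv] at this
  have x1' : q₁ * x * q₁⁻¹ = x := conjz h.swap h1
  have hd := data_conj h.dz q₁
  set u := q₀ * q₁ * q₀⁻¹ with hu
  set u' := q₁ * q₀ * q₁⁻¹ with hu'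
  have hu'Q : u' ∈ conjS q₁ P := conj_mem_conjS h0
  have huQ : u ∈ conjS q₁ P := by
    obtain ⟨g, hg, hS⟩ := h.ex
    rw [mem_conjS]
    have := h.dz.conj (q₁⁻¹ * q₀ * g) (mul_inv_eq_iff_eq_mul.1 (by
      rw [show q₁⁻¹ * q₀ * g * z * (q₁⁻¹ * q₀ * g)⁻¹ = q₁⁻¹ * (q₀ * (g * z * g⁻¹) * q₀⁻¹) * q₁ by group, hg,
        m0, show q₁⁻¹ * (x * z) * q₁ = (q₁⁻¹ * x * q₁) * (q₁⁻¹ * z * q₁) by group, x1, n1, comm_zx h,
        ← mul_assoc, h.dx.sq, one_mul])) _ ((hS q₁).1 h1)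
    convert this using 1
    rw [hu]; group
  have hzQ : z ∈ conjS q₁ P := by
    rw [mem_conjS, n1]; exact P.mul_mem h.dz.mem h.xmem
  have ex' : z * (z * x) = x := by rw [← mul_assoc, h.dz.sq, one_mul]
  have mu : u * z * u⁻¹ = x := by
    rw [hu, show q₀ * q₁ * q₀⁻¹ * z * (q₀ * q₁ * q₀⁻¹)⁻¹ = q₀ * (q₁ * (q₀⁻¹ * z * q₀) * q₁⁻¹) * q₀⁻¹ by group,
      z0, m1, show q₀ * (z * x) * q₀⁻¹ = (q₀ * z * q₀⁻¹) * (q₀ * x * q₀⁻¹) by group, z0', m0, ← comm_zx h, ex']
  have mu' : u' * z * u'⁻¹ = x := by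
    rw [hu', show q₁ * q₀ * q₁⁻¹ * z * (q₁ * q₀ * q₁⁻¹)⁻¹ = q₁ * (q₀ * (q₁⁻¹ * z * q₁) * q₀⁻¹) * q₁⁻¹ by group,
      n1, show q₀ * (z * x) * q₀⁻¹ = (q₀ * z * q₀⁻¹) * (q₀ * x * q₀⁻¹) by group, z0', m0, ← comm_zx h, ex',
      x1']
  have hw : u⁻¹ * u' * z * (u⁻¹ * u')⁻¹ = z := by
    rw [show u⁻¹ * u' * z * (u⁻¹ * u')⁻¹ = u⁻¹ * (u' * z * u'⁻¹) * u by group, mu', ← mu]
    group
  have hwQ : u⁻¹ * u' ∈ conjS q₁ P := mul_mem (inv_mem huQ) hu'Q
  have hA : q₁⁻¹ * (u⁻¹ * u') * q₁ ∈ rad z x P S := by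
    refine A_le h (mem_conjS.1 hwQ) ?_
    have c1 : Commute (q₁⁻¹ * (u⁻¹ * u') * q₁) (z * x) := by
      rw [← n1]
      have := congrArg (fun t => q₁⁻¹ * t * q₁) (mul_inv_eq_iff_eq_mul.1 hw)
      show _ = _
      convert this using 1 <;> group
    have c2 : Commute (q₁⁻¹ * (u⁻¹ * u') * q₁) z := h.dz.comm _ (mem_conjS.1 hwQ)
    have := c2.mul_right c1
    rwa [ex'] at this
  have := S_normalizes h h1 hA
  rwa [show q₁ * (q₁⁻¹ * (u⁻¹ * u') * q₁) * q₁⁻¹ = u⁻¹ * u' by group] at this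

end

end Cfsg.Lib.Large.Pair
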