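import Cfsg.Agent.Lib.Large.Pair
import Cfsg.Agent.Lib.Transfer.Basic

/-! The action on the four-group of a pair of large extraspecial subgroups. -/

set_option autoImplicit false

namespace Cfsg.Lib.Large.Pair

open Cfsg.Agent.S5595 (Data)

variable {G : Type*} [Group G] {z x : G} {P S : Subgroup G}

section

variable (h : Setting z x P S)
include h

theorem mem_V {v : G} : v ∈ Subgroup.closure ({z, x} : Set G) ↔ v = 1 ∨ v = z ∨ v = x ∨ v = z * x := by
  constructor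
  · intro hv
    have e1 : z * (z * x) = x := by rw [← mul_assoc, h.dz.sq, one_mul]
    have e2 : x * (z * x) = z := by rw [comm_zx h, ← mul_assoc, h.dx.sq, one_mul]
    have e3 : x * z = z * x := (comm_zx h).symm
    induction hv using Subgroup.closure_induction_left with
    | one => exact Or.inl rfl
    | mul_left a ha b _ hb =>
      rcases ha with rfl | ha
      · rcases hb with rfl | rfl | rfl | rfl <;> simp [h.dz.sq, e1]
      · rw [Set.mem_singleton_iff.1 ha]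
        rcases hb with rfl | rfl | rfl | rfl <;> simp [h.dx.sq, e2, e3]
    | inv_mul_cancel a ha b _ hb =>
      rcases ha with rfl | ha
      · rw [inv_eq_of_mul_eq_one_right h.dz.sq]
        rcases hb with rfl | rfl | rfl | rfl <;> simp [h.dz.sq, e1]
      · rw [Set.mem_singleton_iff.1 ha, inv_eq_of_mul_eq_one_right h.dx.sq]
        rcases hb with rfl | rfl | rfl | rfl <;> simp [h.dx.sq, e2, e3]
  · rintro (rfl | rfl | rfl | rfl)
    · exact one_mem _
    · exact Subgroup.subset_closure (by simp)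
    · exact Subgroup.subset_closure (by simp)
    · exact mul_mem (Subgroup.subset_closure (by simp)) (Subgroup.subset_closure (by simp))

end

/-- The three nonidentity points. -/
def Pt (z x : G) : Type _ := {v : G // v = z ∨ v = x ∨ v = z * x}

theorem mem_centralizer_V {c : G} :
    c ∈ Subgroup.centralizer ((Subgroup.closure ({z, x} : Set G)) : Set G) ↔ c * z = z * c ∧ c * x = x * c := by
  rw [Subgroup.centralizer_closure, Subgroup.mem_centralizer_iff]
  simp only [Set.mem_insert_iff, Set.mem_singleton_iff, forall_eq_or_imp, forall_eq]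
  exact ⟨fun e => ⟨e.1.symm, e.2.symm⟩, fun e => ⟨e.1.symm, e.2.symm⟩⟩

section

variable (h : Setting z x P S)
include h

theorem zx_ne : z * x ≠ 1 ∧ z * x ≠ z ∧ z * x ≠ x := by
  refine ⟨fun e => h.ne ?_, fun e => h.dx.ne ?_, fun e => h.dz.ne ?_⟩
  · exact mul_left_cancel (e.trans h.dz.sq.symm)
  · exact mul_eq_left.1 e
  · exact mul_eq_right.1 e

theorem pt_iff {v : G} :
    (v = z ∨ v = x ∨ v = z * x) ↔ v ∈ Subgroup.closure ({z, x} : Set G) ∧ v ≠ 1 := by
  rw [mem_V h]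
  refine ⟨fun hv => ⟨Or.inr hv, ?_⟩, fun hv => hv.1.resolve_left hv.2⟩
  rcases hv with rfl | rfl | rfl
  exacts [h.dz.ne, h.dx.ne, (zx_ne h).1]

theorem P_le_normalizer : P ≤ Subgroup.normalizer ((Subgroup.closure ({z, x} : Set G)) : Set G) := by
  have key : ∀ q ∈ P, ∀ v ∈ Subgroup.closure ({z, x} : Set G), q * v * q⁻¹ ∈ Subgroup.closure ({z, x} : Set G) := by
    intro q hq v hv
    have : (Subgroup.closure ({z, x} : Set G)).map (MulAut.conj q).toMonoidHom ≤
        Subgroup.closure ({z, x} : Set G) := by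
      rw [MonoidHom.map_closure, Subgroup.closure_le]
      rintro w ⟨v, hv', rfl⟩
      show q * v * q⁻¹ ∈ Subgroup.closure ({z, x} : Set G)
      rcases hv' with rfl | hv'
      · rw [conjz h hq]; exact Subgroup.subset_closure (by simp)
      · rw [Set.mem_singleton_iff.1 hv']
        rcases conjx h hq with e | e <;> rw [e]
        · exact Subgroup.subset_closure (by simp)
        · exact mul_mem (Subgroup.subset_closure (by simp)) (Subgroup.subset_closure (by simp))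
    exact this ⟨v, hv, rfl⟩
  intro q hq
  rw [Subgroup.mem_normalizer_iff]
  refine fun v => ⟨fun hv => key q hq v hv, fun hv => ?_⟩
  have := key q⁻¹ (P.inv_mem hq) _ hv
  rwa [show q⁻¹ * (q * v * q⁻¹) * q⁻¹⁻¹ = v by group] at this

theorem sup_le_normalizer : P ⊔ S ≤ Subgroup.normalizer ((Subgroup.closure ({z, x} : Set G)) : Set G) := by
  refine sup_le (P_le_normalizer h) ?_
  have := P_le_normalizer h.swap
  rwa [Set.pair_comm] at this

theorem centralizer_normalizes {c : G}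
    (hc : c ∈ Subgroup.centralizer ((Subgroup.closure ({z, x} : Set G)) : Set G)) {y : G} (hy : y ∈ P ⊔ S) :
    c * y * c⁻¹ ∈ P ⊔ S := by
  obtain ⟨hcz, hcx⟩ := mem_centralizer_V.1 hc
  have : (P ⊔ S).map (MulAut.conj c).toMonoidHom ≤ P ⊔ S := by
    rw [Subgroup.map_sup]
    refine sup_le_sup ?_ ?_
    · rintro w ⟨q, hq, rfl⟩; exact h.dz.conj c hcz q hq
    · rintro w ⟨q, hq, rfl⟩; exact h.dx.conj c hcx q hq
  exact this ⟨y, hy, rfl⟩

/-- The action of the normalizer of the four-group on its three involutions. -/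
noncomputable def act : Subgroup.normalizer ((Subgroup.closure ({z, x} : Set G)) : Set G) →* Equiv.Perm (Pt z x) where
  toFun y :=
    { toFun := fun v => ⟨y.1 * v.1 * y.1⁻¹, (pt_iff h).2
        ⟨(Subgroup.mem_normalizer_iff.1 y.2 v.1).1 ((pt_iff h).1 v.2).1,
          fun e => ((pt_iff h).1 v.2).2 (conj_eq_one_iff.1 e)⟩⟩
      invFun := fun v => ⟨y.1⁻¹ * v.1 * y.1⁻¹⁻¹, (pt_iff h).2
        ⟨(Subgroup.mem_normalizer_iff.1 (inv_mem y.2) v.1).1 ((pt_iff h).1 v.2).1,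
          fun e => ((pt_iff h).1 v.2).2 (conj_eq_one_iff.1 e)⟩⟩
      left_inv := fun v => Subtype.ext (by simp [mul_assoc])
      right_inv := fun v => Subtype.ext (by simp [mul_assoc]) }
  map_one' := Equiv.ext fun v => Subtype.ext (by show (1 : G) * v.1 * (1 : G)⁻¹ = v.1; group)
  map_mul' a b := Equiv.ext fun v => Subtype.ext (by
    show a.1 * b.1 * v.1 * (a.1 * b.1)⁻¹ = a.1 * (b.1 * v.1 * b.1⁻¹) * a.1⁻¹
    group)

theorem act_val (y : Subgroup.normalizer ((Subgroup.closure ({z, x} : Set G)) : Set G)) (v : Pt z x) :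
    (act h y v).1 = y.1 * v.1 * y.1⁻¹ := rfl

theorem act_eq_one_iff (y : Subgroup.normalizer ((Subgroup.closure ({z, x} : Set G)) : Set G)) :
    act h y = 1 ↔ (y : G) ∈ Subgroup.centralizer ((Subgroup.closure ({z, x} : Set G)) : Set G) := by
  rw [mem_centralizer_V]
  constructor
  · intro e
    have h1 := congrArg (fun f : Equiv.Perm (Pt z x) => (f ⟨z, Or.inl rfl⟩).1) e
    have h2 := congrArg (fun f : Equiv.Perm (Pt z x) => (f ⟨x, Or.inr (Or.inl rfl)⟩).1) e
    exact ⟨mul_inv_eq_iff_eq_mul.1 h1, mul_inv_eq_iff_eq_mul.1 h2⟩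
  · rintro ⟨h1, h2⟩
    refine Equiv.ext fun v => Subtype.ext ?_
    show y.1 * v.1 * y.1⁻¹ = v.1
    have c1 : Commute y.1 z := h1
    have c2 : Commute y.1 x := h2
    rcases v.2 with e | e | e <;> rw [e]
    exacts [c1.mul_inv_cancel, c2.mul_inv_cancel, (c1.mul_right c2).mul_inv_cancel]

/-- The three points are numbered. -/
noncomputable def ptEquiv : Fin 3 ≃ Pt z x :=
  Equiv.ofBijective ![⟨z, Or.inl rfl⟩, ⟨x, Or.inr (Or.inl rfl)⟩, ⟨z * x, Or.inr (Or.inr rfl)⟩] (by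
    obtain ⟨-, n2, n3⟩ := zx_ne h
    constructor
    · intro i j e
      have e' := congrArg Subtype.val e
      fin_cases i <;> fin_cases j <;>
        first
        | rfl
        | (exact absurd e' h.ne.symm) | (exact absurd e' h.ne) | (exact absurd e' n2) | (exact absurd e' n2.symm)
        | (exact absurd e' n3) | (exact absurd e' n3.symm)
    · rintro ⟨v, hv⟩
      rcases hv with rfl | rfl | rfl
      exacts [⟨0, rfl⟩, ⟨1, rfl⟩, ⟨2, rfl⟩])

/-- The action as permutations of `Fin 3`. -/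
noncomputable def act3 : Subgroup.normalizer ((Subgroup.closure ({z, x} : Set G)) : Set G) →* Equiv.Perm (Fin 3) :=
  (ptEquiv h).symm.permCongrHom.toMonoidHom.comp (act h)

theorem act3_eq_one_iff (y : Subgroup.normalizer ((Subgroup.closure ({z, x} : Set G)) : Set G)) :
    act3 h y = 1 ↔ (y : G) ∈ Subgroup.centralizer ((Subgroup.closure ({z, x} : Set G)) : Set G) := by
  rw [← act_eq_one_iff h]
  exact MulEquiv.map_eq_one_iff (ptEquiv h).symm.permCongrHom

theorem act3_apply {y : Subgroup.normalizer ((Subgroup.closure ({z, x} : Set G)) : Set G)} {i j : Fin 3}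
    (e : (y : G) * (ptEquiv h i).1 * (y : G)⁻¹ = (ptEquiv h j).1) : act3 h y i = j := by
  show (ptEquiv h).symm (act h y (ptEquiv h i)) = j
  rw [Equiv.symm_apply_eq]
  exact Subtype.ext e

theorem act3_of {y : G} (hy : y ∈ Subgroup.normalizer ((Subgroup.closure ({z, x} : Set G)) : Set G))
    (σ : Equiv.Perm (Fin 3)) (e0 : y * z * y⁻¹ = (ptEquiv h (σ 0)).1) (e1 : y * x * y⁻¹ = (ptEquiv h (σ 1)).1) :
    act3 h ⟨y, hy⟩ = σ := by
  have a0 : act3 h ⟨y, hy⟩ 0 = σ 0 := act3_apply h e0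
  have a1 : act3 h ⟨y, hy⟩ 1 = σ 1 := act3_apply h e1
  have key : ∀ a b : Equiv.Perm (Fin 3), a 0 = b 0 → a 1 = b 1 → a = b := by decide
  exact key _ _ a0 a1

/-- The transpositions coming from `P` and `S`. -/
theorem act3_gens {q₀ q₁ : G} (h0 : q₀ ∈ P) (h0x : q₀ * x ≠ x * q₀) (h1 : q₁ ∈ S) (h1z : q₁ * z ≠ z * q₁) :
    act3 h ⟨q₀, sup_le_normalizer h (Subgroup.mem_sup_left h0)⟩ = Equiv.swap 1 2 ∧
      act3 h ⟨q₁, sup_le_normalizer h (Subgroup.mem_sup_right h1)⟩ = Equiv.swap 0 2 := by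
  have m0 := conjx_move h h0 h0x
  have m1 : q₁ * z * q₁⁻¹ = z * x := conjx_move h.swap h1 h1z
  refine ⟨act3_of h _ _ ?_ ?_, act3_of h _ _ ?_ ?_⟩
  · rw [conjz h h0]; rfl
  · rw [m0, ← comm_zx h]; rfl
  · rw [m1]; rfl
  · rw [conjz h.swap h1]; rfl

theorem cases_mod_rad {q₀ q₁ : G} (h0 : q₀ ∈ P) (h0x : q₀ * x ≠ x * q₀) (h1 : q₁ ∈ S) (h1z : q₁ * z ≠ z * q₁)
    {y : G} (hy : y ∈ P ⊔ S) : ∃ r ∈ rad z x P S, y = r ∨ y = r * q₀ ∨ y = r * q₁ ∨ y = r * (q₀ * q₁) ∨
      y = r * (q₁ * q₀) ∨ y = r * (q₀ * q₁ * q₀) := by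
  set R := rad z x P S with hR
  have n0 : ∀ r ∈ R, q₀ * r * q₀⁻¹ ∈ R := fun r hr => P_normalizes h h0 hr
  have n1 : ∀ r ∈ R, q₁ * r * q₁⁻¹ ∈ R := fun r hr => S_normalizes h h1 hr
  have s0 : q₀ * q₀ ∈ R := by
    rcases h.dz.square q₀ h0 with e | e <;> rw [e]
    exacts [R.one_mem, zR h]
  have s1 : q₁ * q₁ ∈ R := by
    rcases h.dx.square q₁ h1 with e | e <;> rw [e]
    exacts [R.one_mem, xR h]
  have hbr : ∃ s ∈ R, q₁ * q₀ * q₁ = s * (q₀ * q₁ * q₀) := by
    set u := q₀ * q₁ * q₀⁻¹ with hu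
    set u' := q₁ * q₀ * q₁⁻¹ with hu'
    have hb : u⁻¹ * u' ∈ R := braid h h0 h0x h1 h1z
    refine ⟨(u * (u⁻¹ * u') * u⁻¹) * (u * (q₁ * q₁) * u⁻¹) * (u * (q₀ * q₀)⁻¹ * u⁻¹),
      R.mul_mem (R.mul_mem ?_ ?_) ?_, by simp only [hu, hu']; group⟩
    all_goals refine sup_normalizes h ?_ ?_
    all_goals first
      | exact (P ⊔ S).mul_mem ((P ⊔ S).mul_mem (Subgroup.mem_sup_left h0) (Subgroup.mem_sup_right h1))
          (Subgroup.mem_sup_left (P.inv_mem h0))
      | exact hb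
      | exact s1
      | exact R.inv_mem s0
  obtain ⟨s, hs, hbr⟩ := hbr
  have step : ∀ w, (∃ r ∈ R, w = r ∨ w = r * q₀ ∨ w = r * q₁ ∨ w = r * (q₀ * q₁) ∨ w = r * (q₁ * q₀) ∨
        w = r * (q₀ * q₁ * q₀)) → ∀ a, a ∈ P ∨ a ∈ S → ∃ r ∈ R, a * w = r ∨ a * w = r * q₀ ∨ a * w = r * q₁ ∨
        a * w = r * (q₀ * q₁) ∨ a * w = r * (q₁ * q₀) ∨ a * w = r * (q₀ * q₁ * q₀) := by
    rintro w ⟨r, hr, hw⟩ a ha
    have left : ∀ t ∈ R, ∀ v, (∃ r ∈ R, v = r ∨ v = r * q₀ ∨ v = r * q₁ ∨ v = r * (q₀ * q₁) ∨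
        v = r * (q₁ * q₀) ∨ v = r * (q₀ * q₁ * q₀)) → ∃ r ∈ R, t * v = r ∨ t * v = r * q₀ ∨ t * v = r * q₁ ∨
        t * v = r * (q₀ * q₁) ∨ t * v = r * (q₁ * q₀) ∨ t * v = r * (q₀ * q₁ * q₀) := by
      rintro t ht v ⟨r, hr, hv⟩
      refine ⟨t * r, R.mul_mem ht hr, ?_⟩
      rcases hv with rfl | rfl | rfl | rfl | rfl | rfl <;> simp [mul_assoc]
    rcases ha with ha | ha
    · obtain ⟨t, ht, rfl | rfl⟩ := P_coset h h0 h0x ha
      · exact left _ ht w ⟨r, hr, hw⟩
      rw [mul_assoc]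
      refine left t ht _ ?_
      have r' := n0 r hr
      rcases hw with rfl | rfl | rfl | rfl | rfl | rfl
      · exact ⟨_, r', Or.inr (Or.inl (by group))⟩
      · exact ⟨_, R.mul_mem r' s0, Or.inl (by group)⟩
      · exact ⟨_, r', Or.inr (Or.inr (Or.inr (Or.inl (by group))))⟩
      · exact ⟨_, R.mul_mem r' s0, Or.inr (Or.inr (Or.inl (by group)))⟩
      · exact ⟨_, r', Or.inr (Or.inr (Or.inr (Or.inr (Or.inr (by group)))))⟩
      · exact ⟨_, R.mul_mem r' s0, Or.inr (Or.inr (Or.inr (Or.inr (Or.inl (by group)))))⟩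
    · obtain ⟨t, ht, h'⟩ := P_coset h.swap h1 h1z ha
      rw [rad_swap] at ht
      rcases h' with rfl | rfl
      · exact left _ ht w ⟨r, hr, hw⟩
      rw [mul_assoc]
      refine left t ht _ ?_
      have r' := n1 r hr
      rcases hw with rfl | rfl | rfl | rfl | rfl | rfl
      · exact ⟨_, r', Or.inr (Or.inr (Or.inl (by group)))⟩
      · exact ⟨_, r', Or.inr (Or.inr (Or.inr (Or.inr (Or.inl (by group)))))⟩
      · exact ⟨_, R.mul_mem r' s1, Or.inl (by group)⟩
      · refine ⟨_, R.mul_mem r' hs, Or.inr (Or.inr (Or.inr (Or.inr (Or.inr ?_))))⟩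
        rw [show q₁ * (r * (q₀ * q₁)) = q₁ * r * q₁⁻¹ * (q₁ * q₀ * q₁) by group, hbr]
        group
      · exact ⟨_, R.mul_mem r' s1, Or.inr (Or.inl (by group))⟩
      · refine ⟨_, R.mul_mem (R.mul_mem r' hs) (sup_normalizes h
          ((P ⊔ S).mul_mem (Subgroup.mem_sup_left h0) (Subgroup.mem_sup_right h1)) s0),
          Or.inr (Or.inr (Or.inr (Or.inl ?_)))⟩
        rw [show q₁ * (r * (q₀ * q₁ * q₀)) = q₁ * r * q₁⁻¹ * (q₁ * q₀ * q₁) * q₀ by group, hbr]; group
  rw [Subgroup.sup_eq_closure] at hy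
  induction hy using Subgroup.closure_induction_left with
  | one => exact ⟨1, R.one_mem, Or.inl rfl⟩
  | mul_left a ha b _ ih => exact step b ih a ha
  | inv_mul_cancel a ha b _ ih =>
    exact step b ih a⁻¹ (ha.imp (fun e => P.inv_mem e) fun e => S.inv_mem e)

/-- The centralizer of the four-group in `X` is `R`. -/
theorem sup_inf_centralizer :
    (P ⊔ S) ⊓ Subgroup.centralizer ((Subgroup.closure ({z, x} : Set G)) : Set G) = rad z x P S := by
  refine le_antisymm ?_ fun r hr => ⟨?_, mem_centralizer_V.2 (rad_comm h hr)⟩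
  · rintro y ⟨hy, hyc⟩
    obtain ⟨q₀, h0, h0x⟩ := exists_move h
    obtain ⟨q₁, h1, h1z⟩ := exists_move h.swap
    obtain ⟨g0, g1⟩ := act3_gens h h0 h0x h1 h1z
    have hyN := sup_le_normalizer h hy
    have e1 := (act3_eq_one_iff h ⟨y, hyN⟩).2 hyc
    obtain ⟨r, hr, hcase⟩ := cases_mod_rad h h0 h0x h1 h1z hy
    have hrX : r ∈ P ⊔ S := by
      obtain ⟨b, hb, a, ha, -, -, rfl⟩ := prod h hr
      exact mul_mem (Subgroup.mem_sup_right hb) (Subgroup.mem_sup_left ha)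
    have er : act3 h ⟨r, sup_le_normalizer h hrX⟩ = 1 :=
      (act3_eq_one_iff h _).2 (mem_centralizer_V.2 (rad_comm h hr))
    set N := Subgroup.normalizer ((Subgroup.closure ({z, x} : Set G)) : Set G)
    set R0 : N := ⟨r, sup_le_normalizer h hrX⟩
    set A0 : N := ⟨q₀, sup_le_normalizer h (Subgroup.mem_sup_left h0)⟩
    set A1 : N := ⟨q₁, sup_le_normalizer h (Subgroup.mem_sup_right h1)⟩
    rcases hcase with rfl | rfl | rfl | rfl | rfl | rfl
    · exact hr
    · exfalso; rw [show (⟨_, hyN⟩ : N) = R0 * A0 from rfl, map_mul, er, g0] at e1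
      revert e1; decide
    · exfalso; rw [show (⟨_, hyN⟩ : N) = R0 * A1 from rfl, map_mul, er, g1] at e1
      revert e1; decide
    · exfalso; rw [show (⟨_, hyN⟩ : N) = R0 * (A0 * A1) from rfl, map_mul, map_mul, er, g0, g1] at e1
      revert e1; decide
    · exfalso; rw [show (⟨_, hyN⟩ : N) = R0 * (A1 * A0) from rfl, map_mul, map_mul, er, g0, g1] at e1
      revert e1; decide
    · exfalso; rw [show (⟨_, hyN⟩ : N) = R0 * (A0 * A1 * A0) from rfl, map_mul, map_mul, map_mul, er, g0, g1] at e1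
      revert e1; decide
  · obtain ⟨b, hb, a, ha, -, -, rfl⟩ := prod h hr
    exact mul_mem (Subgroup.mem_sup_right hb) (Subgroup.mem_sup_left ha)

theorem act3_surj_on : ∀ σ : Equiv.Perm (Fin 3), ∃ y : Subgroup.normalizer ((Subgroup.closure ({z, x} : Set G)) : Set G),
    (y : G) ∈ P ⊔ S ∧ act3 h y = σ := by
  intro σ
  obtain ⟨q₀, h0, h0x⟩ := exists_move h
  obtain ⟨q₁, h1, h1z⟩ := exists_move h.swap
  obtain ⟨g0, g1⟩ := act3_gens h h0 h0x h1 h1z
  set N := Subgroup.normalizer ((Subgroup.closure ({z, x} : Set G)) : Set G)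
  set A0 : N := ⟨q₀, sup_le_normalizer h (Subgroup.mem_sup_left h0)⟩
  set A1 : N := ⟨q₁, sup_le_normalizer h (Subgroup.mem_sup_right h1)⟩
  have key : ∀ σ : Equiv.Perm (Fin 3), σ = 1 ∨ σ = Equiv.swap 1 2 ∨ σ = Equiv.swap 0 2 ∨
      σ = Equiv.swap 1 2 * Equiv.swap 0 2 ∨ σ = Equiv.swap 0 2 * Equiv.swap 1 2 ∨
      σ = Equiv.swap 1 2 * Equiv.swap 0 2 * Equiv.swap 1 2 := by decide
  have m0 : (A0 : G) ∈ P ⊔ S := Subgroup.mem_sup_left h0
  have m1 : (A1 : G) ∈ P ⊔ S := Subgroup.mem_sup_right h1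
  rcases key σ with rfl | rfl | rfl | rfl | rfl | rfl
  · exact ⟨1, (P ⊔ S).one_mem, map_one _⟩
  · exact ⟨A0, m0, g0⟩
  · exact ⟨A1, m1, g1⟩
  · exact ⟨A0 * A1, mul_mem m0 m1, by rw [map_mul, g0, g1]⟩
  · exact ⟨A1 * A0, mul_mem m1 m0, by rw [map_mul, g0, g1]⟩
  · exact ⟨A0 * A1 * A0, mul_mem (mul_mem m0 m1) m0, by rw [map_mul, map_mul, g0, g1]⟩

/-- The factorisation of the normalizer of the four-group. -/
theorem normalizer_eq : Subgroup.normalizer ((Subgroup.closure ({z, x} : Set G)) : Set G) =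
    (P ⊔ S) ⊔ Subgroup.centralizer ((Subgroup.closure ({z, x} : Set G)) : Set G) := by
  refine le_antisymm (fun y hy => ?_) (sup_le (sup_le_normalizer h) ?_)
  · obtain ⟨w, hw, he⟩ := act3_surj_on h (act3 h ⟨y, hy⟩)
    have h1 : act3 h (w⁻¹ * ⟨y, hy⟩) = 1 := by rw [map_mul, map_inv, he, inv_mul_cancel]
    have h2 := (act3_eq_one_iff h _).1 h1
    have : y = (w : G) * ((w : G)⁻¹ * y) := (mul_inv_cancel_left _ _).symm
    rw [this]
    exact mul_mem (Subgroup.mem_sup_left hw) (Subgroup.mem_sup_right h2)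
  · intro c hc
    rw [Subgroup.mem_centralizer_iff] at hc
    rw [Subgroup.mem_normalizer_iff]
    intro v
    constructor
    · intro hv
      rw [← hc v hv, mul_inv_cancel_right]; exact hv
    · intro hv
      have := hc _ hv
      rw [inv_mul_cancel_right] at this
      rwa [← mul_left_cancel this] at hv

theorem normalizer_normalizes {y w : G}
    (hy : y ∈ Subgroup.normalizer ((Subgroup.closure ({z, x} : Set G)) : Set G)) (hw : w ∈ P ⊔ S) :
    y * w * y⁻¹ ∈ P ⊔ S := by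
  rw [normalizer_eq h, Subgroup.sup_eq_closure] at hy
  induction hy using Subgroup.closure_induction_left generalizing w with
  | one => rwa [one_mul, inv_one, mul_one]
  | mul_left a ha b _ ih =>
    rw [show a * b * w * (a * b)⁻¹ = a * (b * w * b⁻¹) * a⁻¹ by group]
    rcases ha with ha | ha
    exacts [mul_mem (mul_mem ha (ih hw)) (inv_mem ha), centralizer_normalizes h ha (ih hw)]
  | inv_mul_cancel a ha b _ ih =>
    rw [show a⁻¹ * b * w * (a⁻¹ * b)⁻¹ = a⁻¹ * (b * w * b⁻¹) * a⁻¹⁻¹ by group]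
    rcases ha with ha | ha
    exacts [mul_mem (mul_mem (inv_mem ha) (ih hw)) (inv_mem (inv_mem ha)),
      centralizer_normalizes h (inv_mem ha) (ih hw)]

theorem relIndex_eq [Finite G] : (Subgroup.centralizer ((Subgroup.closure ({z, x} : Set G)) : Set G)).relIndex
    (Subgroup.normalizer ((Subgroup.closure ({z, x} : Set G)) : Set G)) = 6 := by
  have hker : (act3 h).ker = (Subgroup.centralizer ((Subgroup.closure ({z, x} : Set G)) : Set G)).subgroupOf
      (Subgroup.normalizer ((Subgroup.closure ({z, x} : Set G)) : Set G)) := by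
    ext y; exact act3_eq_one_iff h y
  have hsurj : Function.Surjective (act3 h) := fun σ => by
    obtain ⟨y, -, e⟩ := act3_surj_on h σ; exact ⟨y, e⟩
  rw [Subgroup.relIndex, ← hker, Subgroup.index_ker, MonoidHom.range_eq_top.2 hsurj,
    Nat.card_congr Subgroup.topEquiv.toEquiv, Nat.card_eq_fintype_card, Fintype.card_perm, Fintype.card_fin]
  rfl

theorem quotient_iso (hn : ((rad z x P S).subgroupOf (P ⊔ S)).Normal) :
    Nonempty (↥(P ⊔ S) ⧸ (rad z x P S).subgroupOf (P ⊔ S) ≃* Equiv.Perm (Fin 3)) := by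
  let f := (act3 h).comp (Subgroup.inclusion (sup_le_normalizer h))
  have hker : f.ker = (rad z x P S).subgroupOf (P ⊔ S) := by
    ext y
    rw [MonoidHom.mem_ker, Subgroup.mem_subgroupOf, ← sup_inf_centralizer h]
    exact (act3_eq_one_iff h _).trans ⟨fun e => ⟨y.2, e⟩, fun e => e.2⟩
  have hsurj : Function.Surjective f := fun σ => by
    obtain ⟨y, hy, e⟩ := act3_surj_on h σ
    exact ⟨⟨y, hy⟩, e⟩
  exact ⟨(QuotientGroup.quotientMulEquivOfEq hker.symm).trans (QuotientGroup.quotientKerEquivOfSurjective f hsurj)⟩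

theorem pCore_eq [Finite G] : rad z x P S = (Cfsg.pCore 2 ↥(P ⊔ S)).map (P ⊔ S).subtype := by
  haveI : Fact (Nat.Prime 2) := ⟨Nat.prime_two⟩
  have hle : rad z x P S ≤ P ⊔ S := by rw [← sup_inf_centralizer h]; exact inf_le_left
  have hn : ((rad z x P S).subgroupOf (P ⊔ S)).Normal :=
    ⟨fun n hn y => Subgroup.mem_subgroupOf.2 (sup_normalizes h y.2 (Subgroup.mem_subgroupOf.1 hn))⟩
  refine le_antisymm ?_ ?_
  · intro r hr
    have hp : IsPGroup 2 ((rad z x P S).subgroupOf (P ⊔ S)) := fun a =>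
      ⟨2, Subtype.ext (Subtype.ext (rad_pow_four h a.2))⟩
    have hm : (rad z x P S).subgroupOf (P ⊔ S) ∈ {N : Subgroup ↥(P ⊔ S) | N.Normal ∧ IsPGroup 2 N} := ⟨hn, hp⟩
    exact ⟨⟨r, hle hr⟩, (le_sSup hm : _ ≤ Cfsg.pCore 2 ↥(P ⊔ S)) hr, rfl⟩
  · rintro r ⟨n, hnc, rfl⟩
    rw [← sup_inf_centralizer h]
    refine ⟨n.2, ?_⟩
    let f := (act3 h).comp (Subgroup.inclusion (sup_le_normalizer h))
    refine (act3_eq_one_iff h (Subgroup.inclusion (sup_le_normalizer h) n)).1 ?_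
    show f n = 1
    have hp : IsPGroup 2 (Cfsg.pCore 2 ↥(P ⊔ S)) := Cfsg.Lib.Transfer.pCore_isPGroup 2
    have key : ∀ m : ↥(P ⊔ S), m ∈ Cfsg.pCore 2 ↥(P ⊔ S) → f m ^ 2 = 1 := by
      intro m hm
      obtain ⟨k, hk⟩ := hp ⟨m, hm⟩
      have hk' : f m ^ 2 ^ k = 1 := by
        rw [← map_pow, show m ^ 2 ^ k = 1 from congrArg Subtype.val hk, map_one]
      have h6 : ∀ σ : Equiv.Perm (Fin 3), σ ^ 6 = 1 := fun σ => by
        have := pow_card_eq_one (x := σ)
        rwa [Fintype.card_perm, Fintype.card_fin] at this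
      rw [← orderOf_dvd_iff_pow_eq_one]
      have := Nat.dvd_gcd (orderOf_dvd_of_pow_eq_one hk') (orderOf_dvd_of_pow_eq_one (h6 (f m)))
      refine this.trans ?_
      rw [show 6 = 3 * 2 from rfl]
      have hc : Nat.Coprime 3 (2 ^ k) := Nat.Coprime.pow_right k (by decide)
      rw [Nat.Coprime.gcd_mul_left_cancel_right 2 hc]
      exact Nat.gcd_dvd_right _ _
    by_contra hne
    have key2 : ∀ σ : Equiv.Perm (Fin 3), σ ≠ 1 → σ * σ = 1 →
        ∃ τ : Equiv.Perm (Fin 3), σ * (τ * σ * τ⁻¹) * (σ * (τ * σ * τ⁻¹)) ≠ 1 := by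
      set_option maxRecDepth 100000 in decide
    obtain ⟨τ, hτ⟩ := key2 (f n) hne ((pow_two _).symm.trans (key n hnc))
    obtain ⟨t, ht, rfl⟩ := act3_surj_on h τ
    haveI : (Cfsg.pCore 2 ↥(P ⊔ S)).Normal := Cfsg.Lib.Transfer.pCore_normal 2
    refine hτ ?_
    have := key (n * (⟨t, ht⟩ * n * ⟨t, ht⟩⁻¹)) (mul_mem hnc (Subgroup.Normal.conj_mem inferInstance n hnc _))
    rw [map_mul, map_mul, map_mul, map_inv, pow_two] at this
    exact this

end

end Cfsg.Lib.Large.Pair
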