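import Cfsg.Agent.Lib.Large.PairAction
import Cfsg.Agent.Lib.Solv.PGroupBasic

/-! Passing from the frozen hypotheses to a pair. -/

set_option autoImplicit false

namespace Cfsg.Lib.Large.Pair

open Cfsg.Agent.S5595 (Data)

variable {G : Type*} [Group G] [Finite G]

theorem exists_generator {Q : Subgroup G} (hL1 : Cfsg.IsExtraspecial 2 ↥Q) :
    ∃ z : G, orderOf z = 2 ∧ (Subgroup.center ↥Q).map Q.subtype = Subgroup.zpowers z := by
  haveI : Fact (Nat.Prime 2) := ⟨Nat.prime_two⟩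
  have hc : Nat.card ((Subgroup.center ↥Q).map Q.subtype) = 2 := by
    rw [Nat.card_congr (Subgroup.equivMapOfInjective _ _ Q.subtype_injective).symm.toEquiv]
    exact hL1.2
  obtain ⟨u, hu, -⟩ := (Nat.card_eq_two_iff' (1 : ((Subgroup.center ↥Q).map Q.subtype))).1 hc
  have ho : orderOf (u : G) = 2 := by
    rw [Subgroup.orderOf_coe]
    refine (Nat.prime_two.eq_one_or_self_of_dvd _ (hc ▸ orderOf_dvd_natCard u)).resolve_left ?_
    rwa [orderOf_eq_one_iff]
  refine ⟨u, ho, (Subgroup.eq_of_le_of_card_ge (Subgroup.zpowers_le.2 u.2) ?_).symm⟩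
  rw [hc, Nat.card_zpowers, ho]

theorem data_of {Q : Subgroup G} (hL1 : Cfsg.IsExtraspecial 2 ↥Q)
    (hL2 : Subgroup.centralizer (Q : Set G) = (Subgroup.center ↥Q).map Q.subtype)
    (hL3 : Subgroup.centralizer (((Subgroup.center ↥Q).map Q.subtype) : Set G) ≤ Subgroup.normalizer (Q : Set G))
    {z : G} (hz2 : orderOf z = 2) (hz : (Subgroup.center ↥Q).map Q.subtype = Subgroup.zpowers z) :
    Data z Q := by
  haveI : Fact (Nat.Prime 2) := ⟨Nat.prime_two⟩
  have hzz : z * z = 1 := by rw [← pow_two, ← hz2, pow_orderOf_eq_one]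
  have hz1 : z ≠ 1 := fun e => by rw [e, orderOf_one] at hz2; omega
  obtain ⟨zq, hzq, rfl⟩ : z ∈ (Subgroup.center ↥Q).map Q.subtype := hz ▸ Subgroup.mem_zpowers z
  obtain ⟨⟨hp, hfr, hcm⟩, hcard⟩ := hL1
  have hcen : ∀ a : Q, a ∈ Subgroup.center Q → (a : G) = 1 ∨ (a : G) = (zq : G) := by
    intro a ha
    by_contra hcon
    push Not at hcon
    obtain ⟨u, -, hu⟩ := (Nat.card_eq_two_iff' (1 : Subgroup.center Q)).1 hcard
    have n2 : (⟨a, ha⟩ : Subgroup.center Q) ≠ 1 := fun e =>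
      hcon.1 (congrArg (fun w : Subgroup.center Q => ((w : Q) : G)) e)
    have n1 : (⟨zq, hzq⟩ : Subgroup.center Q) ≠ 1 := fun e =>
      hz1 (congrArg (fun w : Subgroup.center Q => ((w : Q) : G)) e)
    exact hcon.2 (congrArg (fun w : Subgroup.center Q => ((w : Q) : G)) ((hu _ n2).trans (hu _ n1).symm))
  refine ⟨zq.2, hzz, hz1, fun q hq => congrArg Subtype.val (Subgroup.mem_center_iff.1 hzq ⟨q, hq⟩), ?_, ?_, ?_, ?_, ?_⟩
  · intro c hc q hq
    refine (Subgroup.mem_normalizer_iff.1 (hL3 ?_) q).1 hq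
    rw [hz, Subgroup.zpowers_eq_closure, Subgroup.centralizer_closure]
    exact Subgroup.mem_centralizer_singleton_iff.2 hc
  · intro a ha b hb
    exact hcen ⟨a * b * a⁻¹ * b⁻¹, mul_mem (mul_mem (mul_mem ha hb) (inv_mem ha)) (inv_mem hb)⟩ (by
      rw [← hcm]
      exact Subgroup.commutator_mem_commutator (Subgroup.mem_top (⟨a, ha⟩ : Q))
        (Subgroup.mem_top (⟨b, hb⟩ : Q)))
  · intro a ha
    exact hcen ⟨a * a, mul_mem ha ha⟩ (by
      rw [← hfr]
      have h' := Cfsg.Lib.Solv.pow_mem_frattini hp (⟨a, ha⟩ : Q)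
      rwa [pow_two] at h')
  · intro a ha h'
    exact hcen ⟨a, ha⟩ (Subgroup.mem_center_iff.2 fun b => Subtype.ext (h' b b.2).symm)
  · intro c hc
    obtain ⟨c', -, rfl⟩ : c ∈ (Subgroup.center ↥Q).map Q.subtype :=
      hL2 ▸ Subgroup.mem_centralizer_iff.2 fun q hq => (hc q hq).symm
    exact c'.2

theorem eight_lt {Q : Subgroup G} {w : ℕ} (hw : 2 ≤ w) (hcard : Nat.card ↥Q = 2 ^ (2 * w + 1)) :
    8 < Nat.card ↥Q := by
  rw [hcard]
  exact lt_of_lt_of_le (by norm_num : 8 < 2 ^ 5) (Nat.pow_le_pow_right (by norm_num) (by omega))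

end Cfsg.Lib.Large.Pair
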