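import Cfsg.Agent.S5595

/-! Singular subgroups for a large extraspecial two-subgroup. -/

set_option autoImplicit false

namespace Cfsg.Lib.Large.Singular

open Cfsg.Agent.S5595 (Data)

variable {G : Type*} [Group G] [Finite G] (Q : G → Subgroup G)

/-- The hypotheses on the family `Q`. -/
structure Setting (z : G) : Prop where
  hQ : ∀ x : G, Q x = (Cfsg.pCore 2 ↥(Subgroup.centralizer ({x} : Set G))).map
    (Subgroup.centralizer ({x} : Set G)).subtype
  hz : orderOf z = 2
  hE : Cfsg.IsExtraspecial 2 ↥(Q z)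
  hC : Subgroup.centralizer ((Q z : Subgroup G) : Set G) ≤ Q z

variable {Q} {z : G}

omit [Finite G] in
theorem centralizes (h : Setting Q z) (y c : G) (hc : c ∈ Q y) : c * y = y * c := by
  rw [h.hQ] at hc
  obtain ⟨c', -, rfl⟩ := hc
  exact Subgroup.mem_centralizer_singleton_iff.1 c'.2

theorem translate (h : Setting Q z) (g y q : G) (hq : q ∈ Q y) : g * q * g⁻¹ ∈ Q (g * y * g⁻¹) := by
  haveI : Fact (Nat.Prime 2) := ⟨Nat.prime_two⟩
  rw [h.hQ] at hq ⊢
  obtain ⟨q', hq', rfl⟩ := hq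
  let e : Subgroup.centralizer ({y} : Set G) ≃* Subgroup.centralizer ({g * y * g⁻¹} : Set G) :=
    ((MulAut.conj g).subgroupMap _).trans (MulEquiv.subgroupCongr (by
      ext w
      rw [Subgroup.mem_centralizer_singleton_iff, Subgroup.mem_map]
      constructor
      · rintro ⟨c, hc, rfl⟩
        rw [Subgroup.mem_centralizer_singleton_iff] at hc
        show g * c * g⁻¹ * (g * y * g⁻¹) = g * y * g⁻¹ * (g * c * g⁻¹)
        rw [show g * c * g⁻¹ * (g * y * g⁻¹) = g * (c * y) * g⁻¹ by group, hc]; group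
      · intro e
        refine ⟨g⁻¹ * w * g, Subgroup.mem_centralizer_singleton_iff.2 ?_, ?_⟩
        · rw [show g⁻¹ * w * g * y = g⁻¹ * (w * (g * y * g⁻¹)) * g by group, e]; group
        · show g * (g⁻¹ * w * g) * g⁻¹ = w
          group))
  exact ⟨e q', (Cfsg.Lib.PLocal.map_pCore_equiv (p := 2) e).le ⟨q', hq', rfl⟩, rfl⟩

theorem translate_iff (h : Setting Q z) (g y q : G) : q ∈ Q (g * y * g⁻¹) ↔ g⁻¹ * q * g ∈ Q y := by
  refine ⟨fun hq => ?_, fun hq => ?_⟩
  · have := translate h g⁻¹ _ q hq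
    rw [inv_inv, show g⁻¹ * (g * y * g⁻¹) * g = y by group] at this
    exact this
  · have := translate h g y _ hq
    rwa [show g * (g⁻¹ * q * g) * g⁻¹ = q by group] at this

theorem data_base (h : Setting Q z) : Data z (Q z) := by
  haveI : Fact (Nat.Prime 2) := ⟨Nat.prime_two⟩
  obtain ⟨⟨hp, hfr, hcm⟩, hcard⟩ := h.hE
  have hzQ : z ∈ Q z := h.hC (Subgroup.mem_centralizer_iff.2 fun q hq => centralizes h z q hq)
  have hzz : z * z = 1 := by rw [← pow_two, ← h.hz, pow_orderOf_eq_one]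
  have hz1 : z ≠ 1 := fun e => by have := h.hz; rw [e, orderOf_one] at this; omega
  have hcen : ∀ a : Q z, a ∈ Subgroup.center (Q z) → (a : G) = 1 ∨ (a : G) = z := by
    intro a ha
    by_contra hcon
    push Not at hcon
    have hzc : (⟨z, hzQ⟩ : Q z) ∈ Subgroup.center (Q z) :=
      Subgroup.mem_center_iff.2 fun q => Subtype.ext (centralizes h z q q.2)
    have n1 : (1 : Subgroup.center (Q z)) ≠ ⟨_, hzc⟩ := fun e =>
      hz1 (congrArg (fun w : Subgroup.center (Q z) => ((w : Q z) : G)) e).symm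
    have n2 : (⟨a, ha⟩ : Subgroup.center (Q z)) ≠ 1 := fun e =>
      hcon.1 (congrArg (fun w : Subgroup.center (Q z) => ((w : Q z) : G)) e)
    have n3 : (⟨a, ha⟩ : Subgroup.center (Q z)) ≠ ⟨_, hzc⟩ := fun e =>
      hcon.2 (congrArg (fun w : Subgroup.center (Q z) => ((w : Q z) : G)) e)
    obtain ⟨u, -, hu⟩ := (Nat.card_eq_two_iff' (1 : Subgroup.center (Q z))).1 hcard
    exact n3 ((hu _ n2).trans (hu _ n1.symm).symm)
  refine ⟨hzQ, hzz, hz1, fun q hq => centralizes h z q hq, fun c hc q hq => ?_, ?_, ?_, ?_, ?_⟩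
  · have := translate h c z q hq
    rwa [hc, mul_inv_cancel_right] at this
  · intro a ha b hb
    exact hcen ⟨a * b * a⁻¹ * b⁻¹, mul_mem (mul_mem (mul_mem ha hb) (inv_mem ha)) (inv_mem hb)⟩ (by
      rw [← hcm]
      exact Subgroup.commutator_mem_commutator (Subgroup.mem_top (⟨a, ha⟩ : Q z))
        (Subgroup.mem_top (⟨b, hb⟩ : Q z)))
  · intro a ha
    exact hcen ⟨a * a, mul_mem ha ha⟩ (by
      rw [← hfr]
      have h' := Cfsg.Lib.Solv.pow_mem_frattini hp (⟨a, ha⟩ : Q z)
      rwa [pow_two] at h')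
  · intro a ha h'
    exact hcen ⟨a, ha⟩ (Subgroup.mem_center_iff.2 fun b => Subtype.ext (h' b b.2).symm)
  · intro c hc
    exact h.hC (Subgroup.mem_centralizer_iff.2 fun q hq => (hc q hq).symm)

theorem data (h : Setting Q z) {u : G} (hu : ∃ g : G, g * z * g⁻¹ = u) : Data u (Q u) := by
  obtain ⟨g, rfl⟩ := hu
  have hdz := data_base h
  have tr : ∀ a b : G, g * a * g⁻¹ = g * b * g⁻¹ → a = b := fun a b e =>
    mul_left_cancel (mul_right_cancel e)
  refine ⟨translate h g z z hdz.mem, by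
      rw [show g * z * g⁻¹ * (g * z * g⁻¹) = g * (z * z) * g⁻¹ by group, hdz.sq]; group,
    fun e => hdz.ne (conj_eq_one_iff.1 e), fun q hq => centralizes h _ q hq, fun c hc q hq => ?_, ?_, ?_, ?_, ?_⟩
  · have := translate h c _ q hq
    rwa [hc, mul_inv_cancel_right] at this
  · intro a ha b hb
    rw [show a * b * a⁻¹ * b⁻¹ = g * ((g⁻¹ * a * g) * (g⁻¹ * b * g) * (g⁻¹ * a * g)⁻¹ *
      (g⁻¹ * b * g)⁻¹) * g⁻¹ by group]
    rcases hdz.brack _ ((translate_iff h g z a).1 ha) _ ((translate_iff h g z b).1 hb) with h' | h' <;>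
      rw [h']
    · left; group
    · exact Or.inr rfl
  · intro a ha
    rw [show a * a = g * ((g⁻¹ * a * g) * (g⁻¹ * a * g)) * g⁻¹ by group]
    rcases hdz.square _ ((translate_iff h g z a).1 ha) with h' | h' <;> rw [h']
    · left; group
    · exact Or.inr rfl
  · intro a ha h'
    rcases hdz.central _ ((translate_iff h g z a).1 ha) (fun b hb => tr _ _ (by
        calc g * (g⁻¹ * a * g * b) * g⁻¹ = a * (g * b * g⁻¹) := by group
          _ = g * b * g⁻¹ * a := h' _ (translate h g z b hb)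
          _ = _ := by group)) with e | e
    · exact Or.inl (by rw [show a = g * (g⁻¹ * a * g) * g⁻¹ by group, e]; group)
    · exact Or.inr (by rw [show a = g * (g⁻¹ * a * g) * g⁻¹ by group, e])
  · intro c hc
    refine (translate_iff h g z c).2 (hdz.selfc _ fun q hq => tr _ _ ?_)
    calc g * (g⁻¹ * c * g * q) * g⁻¹ = c * (g * q * g⁻¹) := by group
      _ = g * q * g⁻¹ * c := hc _ (translate h g z q hq)
      _ = _ := by group

omit [Finite G] in
/-- Conjugation inside an extraspecial group. -/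
theorem conj_cases {u : G} {R : Subgroup G} (hd : Data u R) {q v : G} (hq : q ∈ R) (hv : v ∈ R) :
    (q * v = v * q ∧ q * v * q⁻¹ = v) ∨ (q * v ≠ v * q ∧ q * v * q⁻¹ = v * u) := by
  rcases hd.brack q hq v hv with h | h
  · rw [mul_inv_eq_one] at h
    exact Or.inl ⟨mul_inv_eq_iff_eq_mul.1 h, h⟩
  · rw [mul_inv_eq_iff_eq_mul] at h
    have h2 : q * v * q⁻¹ = v * u := by rw [h, hd.comm v hv]
    refine Or.inr ⟨fun e => ?_, h2⟩
    rw [e, mul_inv_cancel_right] at h2
    exact hd.ne (left_eq_mul.1 h2)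

open scoped Classical in
omit [Finite G] in
/-- The double centralizer in an extraspecial group. -/
theorem double {u : G} {R : Subgroup G} (hd : Data u R) (S : Finset G) (hS : ∀ v ∈ S, v ∈ R) :
    ∀ x ∈ R, (∀ q ∈ R, (∀ v ∈ S, q * v = v * q) → q * x = x * q) →
      x ∈ Subgroup.closure (insert u (S : Set G)) := by
  induction S using Finset.induction_on with
  | empty =>
    intro x hx h
    rcases hd.central x hx fun b hb => (h b hb (by simp)).symm with e | e
    · rw [e]; exact one_mem _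
    · rw [e]; exact Subgroup.subset_closure (Set.mem_insert _ _)
  | insert v S hvS ih =>
    intro x hx h
    have hv := hS v (Finset.mem_insert_self _ _)
    have hS' : ∀ w ∈ S, w ∈ R := fun w hw => hS w (Finset.mem_insert_of_mem hw)
    have hmono : Subgroup.closure (insert u (S : Set G)) ≤
        Subgroup.closure (insert u ((insert v S : Finset G) : Set G)) :=
      Subgroup.closure_mono (Set.insert_subset_insert (by simp))
    have hins : ∀ q, (∀ w ∈ S, q * w = w * q) → q * v = v * q → ∀ w ∈ insert v S, q * w = w * q := by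
      intro q h1 h2 w hw
      rcases Finset.mem_insert.1 hw with rfl | hw
      · exact h2
      · exact h1 w hw
    by_cases hall : ∀ q ∈ R, (∀ w ∈ S, q * w = w * q) → q * v = v * q
    · exact hmono (ih hS' x hx fun q hq hqS => h q hq (hins q hqS (hall q hq hqS)))
    push Not at hall
    obtain ⟨q₀, hq₀, hq₀S, hq₀v⟩ := hall
    have hv0 : q₀ * v * q₀⁻¹ = v * u := ((conj_cases hd hq₀ hv).resolve_left fun e => hq₀v e.1).2
    have main : ∀ y ∈ R, q₀ * y = y * q₀ →
        (∀ q ∈ R, (∀ w ∈ insert v S, q * w = w * q) → q * y = y * q) →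
        y ∈ Subgroup.closure (insert u (S : Set G)) := by
      intro y hy hy0 hy'
      refine ih hS' y hy fun q hq hqS => ?_
      rcases conj_cases hd hq hv with ⟨e, -⟩ | ⟨-, e⟩
      · exact hy' q hq (hins q hqS e)
      · have hqq : ∀ w ∈ insert v S, q * q₀ * w = w * (q * q₀) := by
          refine hins _ (fun w hw => ?_) ?_
          · rw [mul_assoc, hq₀S w hw, ← mul_assoc, hqS w hw, mul_assoc]
          · refine mul_inv_eq_iff_eq_mul.1 ?_
            rw [show q * q₀ * v * (q * q₀)⁻¹ = q * (q₀ * v * q₀⁻¹) * q⁻¹ by group, hv0,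
              show q * (v * u) * q⁻¹ = (q * v * q⁻¹) * (q * u * q⁻¹) by group, e, hd.comm q hq,
              mul_inv_cancel_right, mul_assoc, hd.sq, mul_one]
        have h2 := hy' (q * q₀) (R.mul_mem hq hq₀) hqq
        rw [mul_assoc, hy0, ← mul_assoc, ← mul_assoc y q q₀] at h2
        exact mul_right_cancel h2
    by_cases hx0 : q₀ * x = x * q₀
    · exact hmono (main x hx hx0 h)
    have hxv : x * v ∈ Subgroup.closure (insert u (S : Set G)) := by
      refine main _ (R.mul_mem hx hv) ?_ fun q hq hqv => ?_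
      · refine mul_inv_eq_iff_eq_mul.1 ?_
        rw [show q₀ * (x * v) * q₀⁻¹ = (q₀ * x * q₀⁻¹) * (q₀ * v * q₀⁻¹) by group, hv0,
          ((conj_cases hd hq₀ hx).resolve_left fun e => hx0 e.1).2,
          show x * u * (v * u) = x * (u * v) * u by group, ← hd.comm v hv,
          show x * (v * u) * u = x * v * (u * u) by group, hd.sq, mul_one]
      · rw [← mul_assoc, h q hq hqv, mul_assoc, hqv v (Finset.mem_insert_self _ _), mul_assoc]
    have e : x = x * v * v⁻¹ := (mul_inv_cancel_right x v).symm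
    rw [e]
    exact mul_mem (hmono hxv) (inv_mem (Subgroup.subset_closure (by simp)))

section

variable {U : Subgroup G}

/-- A transvection. -/
theorem exists_transvection (h : Setting Q z) (hS : ∀ u ∈ U, u ≠ 1 → ∃ g : G, g * z * g⁻¹ = u)
    (hO : ∀ u ∈ U, ∀ v ∈ U, u ≠ 1 → v ≠ 1 → v ∈ Q u) {W : Subgroup G} (hW : W ≤ U) {u : G} (hu : u ∈ U)
    (hu1 : u ≠ 1) {v : G} (hv : v ∈ Q u) (hvW : v ∉ W ⊔ Subgroup.zpowers u) :
    ∃ q ∈ Q u, (∀ w ∈ W, q * w = w * q) ∧ q * v * q⁻¹ = v * u := by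
  classical
  have hd := data h (hS u hu hu1)
  have := Fintype.ofFinite G
  by_contra hcon
  push Not at hcon
  have hWQ : ∀ w ∈ W, w ∈ Q u := fun w hw => by
    by_cases hw1 : w = 1
    · rw [hw1]; exact one_mem _
    · exact hO u hu w (hW hw) hu1 hw1
  have key := double hd (Finset.univ.filter (· ∈ W)) (fun w hw => hWQ w (Finset.mem_filter.1 hw).2) v hv
    fun q hq hqW => by
      have hqW' : ∀ w ∈ W, q * w = w * q := fun w hw => hqW w (by simp [hw])
      rcases conj_cases hd hq hv with ⟨e, -⟩ | ⟨-, e⟩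
      · exact e
      · exact absurd e (hcon q hq hqW')
  refine hvW ((Subgroup.closure_le _).2 ?_ key)
  rintro w (rfl | hw)
  · exact Subgroup.mem_sup_right (Subgroup.mem_zpowers _)
  · exact Subgroup.mem_sup_left (Finset.mem_filter.1 hw).2

theorem normalizes (h : Setting Q z) (hS : ∀ u ∈ U, u ≠ 1 → ∃ g : G, g * z * g⁻¹ = u)
    (hO : ∀ u ∈ U, ∀ v ∈ U, u ≠ 1 → v ≠ 1 → v ∈ Q u) {u : G} (hu : u ∈ U) (hu1 : u ≠ 1) {q : G}
    (hq : q ∈ Q u) {v : G} (hv : v ∈ U) : q * v * q⁻¹ ∈ U := by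
  by_cases hv1 : v = 1
  · rw [hv1, mul_one, mul_inv_cancel]; exact one_mem _
  rcases conj_cases (data h (hS u hu hu1)) hq (hO u hu v hv hu1 hv1) with ⟨-, e⟩ | ⟨-, e⟩ <;> rw [e]
  · exact hv
  · exact U.mul_mem hv hu

theorem le_normalizer (h : Setting Q z) (hS : ∀ u ∈ U, u ≠ 1 → ∃ g : G, g * z * g⁻¹ = u)
    (hO : ∀ u ∈ U, ∀ v ∈ U, u ≠ 1 → v ≠ 1 → v ∈ Q u) :
    (⨆ u ∈ ((U : Set G) \ {1}), Q u) ≤ Subgroup.normalizer (U : Set G) := by
  refine iSup₂_le fun u hu q hq => ?_
  rw [Subgroup.mem_normalizer_iff]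
  refine fun v => ⟨fun hv => normalizes h hS hO hu.1 hu.2 hq hv, fun hv => ?_⟩
  have := normalizes h hS hO hu.1 hu.2 ((Q u).inv_mem hq) hv
  rwa [show q⁻¹ * (q * v * q⁻¹) * q⁻¹⁻¹ = v by group] at this

theorem mem_sup_zpowers {W : Subgroup G} {u v : G} (hu : u * u = 1)
    (huW : ∀ w ∈ W, w * u = u * w) (h : v ∈ W ⊔ Subgroup.zpowers u) : v ∈ W ∨ v * u ∈ W := by
  rw [Subgroup.sup_eq_closure] at h
  induction h using Subgroup.closure_induction with
  | mem w hw =>
    rcases hw with hw | hw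
    · exact Or.inl hw
    · obtain ⟨k, rfl⟩ := Subgroup.mem_zpowers_iff.1 hw
      rcases Int.even_or_odd k with ⟨m, rfl⟩ | ⟨m, rfl⟩
      · left
        rw [← two_mul, zpow_mul, show u ^ (2 : ℤ) = 1 by rw [zpow_two, hu], one_zpow]
        exact W.one_mem
      · right
        rw [zpow_add, zpow_one, zpow_mul, show u ^ (2 : ℤ) = 1 by rw [zpow_two, hu], one_zpow, one_mul, hu]
        exact W.one_mem
  | one => exact Or.inl W.one_mem
  | mul a b _ _ ha hb =>
    rcases ha with ha | ha <;> rcases hb with hb | hb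
    · exact Or.inl (W.mul_mem ha hb)
    · exact Or.inr (by rw [mul_assoc]; exact W.mul_mem ha hb)
    · right
      rw [show a * b * u = a * (b * u) by group, huW b hb, ← mul_assoc]
      exact W.mul_mem ha hb
    · left
      have := W.mul_mem ha hb
      rwa [mul_assoc a u, ← mul_assoc u b u, show u * b * u = b by
        have e := huW _ hb
        rw [mul_assoc, hu, mul_one] at e
        calc u * b * u = u * (b * u) := mul_assoc _ _ _
          _ = b := by rw [← e]] at this
  | inv a _ ha =>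
    rcases ha with ha | ha
    · exact Or.inl (W.inv_mem ha)
    · right
      have e := huW _ (W.inv_mem ha)
      rw [mul_inv_rev, inv_eq_of_mul_eq_one_right hu, mul_assoc] at e
      have := W.inv_mem ha
      rw [mul_inv_rev, inv_eq_of_mul_eq_one_right hu] at this
      rwa [show a⁻¹ * u = u * a⁻¹ by
        calc a⁻¹ * u = u * u * (a⁻¹ * u) := by rw [hu, one_mul]
          _ = u * (u * (a⁻¹ * u)) := mul_assoc _ _ _
          _ = _ := by rw [e, ← mul_assoc u u, hu, one_mul]]

end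

end Cfsg.Lib.Large.Singular
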